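import Mathlib
import Cfsg.Agent.Lib.Mas.Defs
import Cfsg.Agent.S1480
import Cfsg.Agent.Lib.Tech.SylowIn
import Cfsg.Agent.Lib.PGroup.Basic

/-!
A normal subgroup of type (3,3) of the Sylow 3-subgroup and the good elements (plans/MAS.md, GOOD).
-/

set_option autoImplicit false
set_option linter.unusedSectionVars false
set_option linter.unusedVariables false

namespace CfsgLib.Mas

open Cfsg Subgroup

variable {G : Type*} [Group G] [Finite G]

theorem card_inf_mul (H K : Subgroup G) : Nat.card (K ⊓ H : Subgroup G) * H.relIndex K = Nat.card K := by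
  rw [← Nat.card_congr (subgroupOfEquivOfLe (inf_le_left : K ⊓ H ≤ K)).toEquiv, inf_subgroupOf_left]
  exact card_mul_index _

theorem relIndex_cent {P U : Subgroup G} (hP : IsPGroup 3 P) (le : U ≤ P) (norm : P ≤ normalizer (U : Set G))
    (card : Nat.card U = 9) : (centralizer (U : Set G)).relIndex P ≤ 3 := by
  have : Fact (Nat.Prime 3) := ⟨Nat.prime_three⟩
  have : (U.subgroupOf P).Normal := (normal_subgroupOf_iff_le_normalizer le).2 norm
  have h := PGroup.index_centralizer_le_of_normal hP 2 (U.subgroupOf P)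
    (by rw [Nat.card_congr (subgroupOfEquivOfLe le).toEquiv, card]; rfl)
  rwa [Core.centralizer_subgroupOf_of_le le] at h

/-- A normal subgroup of type `(3,3)` of a 3-group. -/
theorem idx {P U : Subgroup G} (hP : IsPGroup 3 P) (le : U ≤ P) (norm : P ≤ normalizer (U : Set G))
    (el : IsElementaryAbelian 3 U) (card : Nat.card U = 9) :
    (∃ z ∈ U, z ≠ 1 ∧ z ∈ centralizer (P : Set G) ∧ ∀ g ∈ P, ∀ u ∈ U, g * u * g⁻¹ * u⁻¹ ∈ zpowers z) ∧
      Nat.card P ≤ 3 * Nat.card (P ⊓ centralizer (U : Set G) : Subgroup G) := by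
  have : Fact (Nat.Prime 3) := ⟨Nat.prime_three⟩
  refine ⟨?_, ?_⟩
  · have : (U.subgroupOf P).Normal := (normal_subgroupOf_iff_le_normalizer le).2 norm
    have c9 : Nat.card (U.subgroupOf P) = 9 := by rw [Nat.card_congr (subgroupOfEquivOfLe le).toEquiv, card]
    obtain ⟨z, z1, z2, z3⟩ := PGroup.exists_mem_center_orderOf_eq hP (U.subgroupOf P)
      (fun e => by rw [e, card_bot] at c9; omega)
    have : (zpowers z).Normal := ⟨fun n hn g => by
      rwa [mem_center_iff.1 (zpowers_le.2 z2 hn) g, mul_inv_cancel_right]⟩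
    have := (inferInstance : (U.subgroupOf P).Normal).map _ (QuotientGroup.mk'_surjective (zpowers z))
    have c3 : Nat.card ((U.subgroupOf P).map (QuotientGroup.mk' (zpowers z))) = 3 := by
      have := card_inf_mul (zpowers z) (U.subgroupOf P)
      rw [inf_eq_right.2 (zpowers_le.2 z1), Nat.card_zpowers, z3, c9] at this
      rw [← relIndex_ker, QuotientGroup.ker_mk']
      omega
    have k := PGroup.le_center_of_card_eq_prime (hP.to_quotient (zpowers z)) _ c3
    refine ⟨z, z1, fun e => ?_, fun g hg => congrArg Subtype.val (mem_center_iff.1 z2 ⟨g, hg⟩), fun g hg u hu => ?_⟩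
    · rw [show z = 1 from Subtype.ext e, orderOf_one] at z3; omega
    · have e := mem_center_iff.1 (k (mem_map_of_mem _ (show (⟨u, le hu⟩ : P) ∈ U.subgroupOf P from hu)))
        (QuotientGroup.mk' _ ⟨g, hg⟩)
      have m : (⟨g, hg⟩ * ⟨u, le hu⟩ * ⟨g, hg⟩⁻¹ * ⟨u, le hu⟩⁻¹ : P) ∈ zpowers z := by
        rw [← QuotientGroup.ker_mk' (zpowers z), MonoidHom.mem_ker, map_mul, map_mul, map_mul, e, map_inv, map_inv]
        group
      obtain ⟨n, hn⟩ := mem_zpowers_iff.1 m
      exact mem_zpowers_iff.2 ⟨n, congrArg Subtype.val hn⟩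
  · rw [← card_inf_mul (centralizer (U : Set G)) P, mul_comm]
    exact Nat.mul_le_mul_right _ (relIndex_cent hP le norm card)

theorem inv_iff {E T : Subgroup G} : T ∈ invSubgroups ⊤ E {2} ↔ Inv E T := by
  refine ⟨fun h => ⟨IsPGroup.iff_card.2 ⟨_, Nat.eq_prime_pow_of_unique_prime_dvd Nat.card_pos.ne'
    fun hp d => h.2.1 _ hp d⟩, h.2.2⟩, fun h => ⟨le_top, fun p hp d => ?_, h.norm⟩⟩
  obtain ⟨n, e⟩ := h.two.exists_card_eq
  exact (Nat.prime_dvd_prime_iff_eq hp Nat.prime_two).1 (hp.dvd_of_dvd_pow (e ▸ d))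

theorem maxInv_iff {E T : Subgroup G} : T ∈ maxInvSubgroups ⊤ E {2} ↔ MaxInv E T :=
  ⟨fun h => ⟨inv_iff.1 h.1, fun R a b => h.2 R (inv_iff.2 a) b⟩,
    fun h => ⟨inv_iff.2 h.toInv, fun R a b => h.max R (inv_iff.1 a) b⟩⟩

theorem inv_cj {E T : Subgroup G} (h : Inv E T) {a : G} (ha : a ∈ normalizer (E : Set G)) : Inv E (Tech.cj a T) :=
  ⟨Tech.isPGroup_cj a h.two, by
    rw [← Tech.cj_normalizer, ← Tech.mem_normalizer_iff_cj.1 ha]; exact Tech.cj_mono a h.norm⟩

theorem maxInv_cj {E T : Subgroup G} (h : MaxInv E T) {a : G} (ha : a ∈ normalizer (E : Set G)) :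
    MaxInv E (Tech.cj a T) :=
  ⟨inv_cj h.toInv ha, fun R r l => by
    rw [← h.max _ (inv_cj r (inv_mem ha)) (by rw [← Tech.cj_inv_cj a T]; exact Tech.cj_mono _ l), Tech.cj_cj_inv]⟩

/-- No nontrivial 2-subgroup is invariant under `B`. -/
theorem inv_scn (P : Sylow 3 G) {B : Subgroup G} (hB : IsSCN (P : Subgroup G) B) (hB3 : ¬ PRankLE 3 2 B)
    (hP : ∀ X : Subgroup G, IsPGroup 2 X → (P : Subgroup G) ≤ normalizer (X : Set G) → X = ⊥)
    (h3 : ∀ R : Subgroup G, IsPGroup 3 R → R ≠ ⊥ → IsPConstrained 3 (normalizer (R : Set G)))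
    {T : Subgroup G} (hT : Inv B T) : T = ⊥ := by
  have : Fact (Nat.Prime 3) := ⟨Nat.prime_three⟩
  have nC := hB.2.1.trans (Core.normalizer_le_normalizer_centralizer (B : Set G))
  have s := (Tech.IsSylowIn.of_sylow P hB.2.1).inf_of_le_normalizer
    (Core.normalizer_le_normalizer_centralizer (B : Set G))
  rw [hB.2.2, inf_eq_right.2 (centralizer_le_normalizer _)] at s
  have tr := Cfsg.Agent.S1480.result 3 h3 (fun e => by omega) B s.pgroup
    (le_centralizer_iff_isMulCommutative.1 s.le) hB3 (fun x hx px => zpowers_le.1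
      (s.le_of_normalizes px (zpowers_le.2 hx) (zpowers_le.2 (centralizer_le_normalizer _ hx)))) 2 (by omega)
  obtain ⟨M, hM, le⟩ := hT.exists_max
  have cop : (Nat.card (piCoreOf (primesNotDvd 3) (centralizer (B : Set G)))).Coprime 3 :=
    ((Nat.Prime.coprime_iff_not_dvd Nat.prime_three).2 fun d =>
      ((Core.isOrdClass_pi (primesNotDvd 3)).card_map_ordCore (centralizer (B : Set G)) 3 Nat.prime_three d).2
        dvd_rfl).symm
  obtain ⟨k, -, hk⟩ := Coprime.exists_conj_normalized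
    (nC.trans ((Core.isOrdClass_pi (primesNotDvd 3)).normalizer_le_normalizer_map_ordCore _))
    (cop_of P.isPGroup' cop) (.inl (solv3 P.isPGroup')) M
    (fun a ha => tr M (maxInv_iff.2 hM) _ (maxInv_iff.2 (maxInv_cj hM (hB.2.1 ha))))
  have := Tech.cj_eq_bot_iff.1 (hP (Tech.cj k M) (Tech.isPGroup_cj k hM.two) hk)
  exact le_bot_iff.1 (this ▸ le)

/-- Generation: a noncyclic group of good elements in `C(a)` makes `a` good. -/
theorem odd_th (loc : Loc G) {A : Subgroup G} (el : IsElementaryAbelian 3 A) (c : 3 < Nat.card A) {a : G}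
    (ha : a ^ 3 = 1) (le : A ≤ centralizer ({a} : Set G))
    (h : ∀ e ∈ A, orderOf e = 3 → Odd (Nat.card (th e))) : Odd (Nat.card (th a)) := by
  have : Fact (Nat.Prime 3) := ⟨Nat.prime_three⟩
  have := el.1
  have nc : ¬ IsCyclic A := fun hc => by
    obtain ⟨g, hg⟩ := IsCyclic.exists_ofOrder_eq_natCard (α := A)
    have := Nat.le_of_dvd (by omega) (orderOf_dvd_of_pow_eq_one (show g ^ 3 = 1 from Subtype.ext (el.2 g g.2)))
    omega
  refine odd_of_inv (KM.el_pgroup el) (le.trans (le_norm_th a)) (cop_th a) fun T l i => le_bot_iff.1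
    (Coprime.le_of_forall_centralizer_le nc i.norm (cop_of (KM.el_pgroup el) (cop_two i.two)) fun e he e1 => ?_)
  have o := orderOf_eq_prime (el.2 e he) e1
  exact (eq_bot_of_odd i.two.to_inf_left ((inf_le_inf_right _ l).trans
    (loc.bal ha o (mem_centralizer_singleton_iff.1 (le he)).symm)) (h e he o)).le

theorem good (loc : Loc G) (P : Sylow 3 G) {B : Subgroup G} (hB : IsSCN (P : Subgroup G) B) (hB3 : ¬ PRankLE 3 2 B)
    (hP : ∀ X : Subgroup G, IsPGroup 2 X → (P : Subgroup G) ≤ normalizer (X : Set G) → X = ⊥)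
    (h3 : ∀ R : Subgroup G, IsPGroup 3 R → R ≠ ⊥ → IsPConstrained 3 (normalizer (R : Set G))) :
    ∃ U : Subgroup G, Gd P U := by
  have : Fact (Nat.Prime 3) := ⟨Nat.prime_three⟩
  have ab : ∀ a ∈ B, ∀ b ∈ B, a * b = b * a := fun a ha b hb => (hB.2.2.ge hb).2 a ha
  let Ω : Subgroup G :=
    { carrier := {b | b ∈ B ∧ b ^ 3 = 1}
      one_mem' := ⟨B.one_mem, one_pow _⟩
      mul_mem' := fun {a b} ha hb => ⟨B.mul_mem ha.1 hb.1, by
        rw [Commute.mul_pow (ab a ha.1 b hb.1), ha.2, hb.2, one_mul]⟩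
      inv_mem' := fun {a} ha => ⟨B.inv_mem ha.1, by rw [inv_pow, ha.2, inv_one]⟩ }
  have ΩP : Ω ≤ P := fun b hb => hB.1 hb.1
  have : (Ω.subgroupOf (P : Subgroup G)).Normal := ⟨fun n hn g =>
    ⟨(mem_normalizer_iff.1 (hB.2.1 g.2) _).1 hn.1, by
      show ((g : G) * n * (g : G)⁻¹) ^ 3 = 1
      rw [conj_pow, show (n : G) ^ 3 = 1 from hn.2, mul_one, mul_inv_cancel]⟩⟩
  have c9 : 3 ^ 2 ≤ Nat.card (Ω.subgroupOf (P : Subgroup G)) := by
    rw [Nat.card_congr (subgroupOfEquivOfLe ΩP).toEquiv]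
    by_contra c
    refine hB3 fun A _ hA => ?_
    rw [← card_map_of_injective B.subtype_injective]
    exact (card_le_of_le (show A.map B.subtype ≤ Ω from by
      rintro _ ⟨a, ha, rfl⟩; exact ⟨a.2, congrArg Subtype.val (hA a ha)⟩)).trans (not_le.1 c).le
  obtain ⟨K, k1, k2, k3⟩ := PGroup.exists_normal_le_card_eq P.isPGroup' _ 2 c9
  obtain ⟨U, hU⟩ : ∃ U, U = K.map (P : Subgroup G).subtype := ⟨_, rfl⟩
  have UΩ : U ≤ Ω := hU ▸ map_le_iff_le_comap.2 k2
  have le : U ≤ P := UΩ.trans ΩP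
  have norm : (P : Subgroup G) ≤ normalizer (U : Set G) := (normal_subgroupOf_iff_le_normalizer le).1
    (by rwa [hU, subgroupOf, comap_map_eq_self_of_injective (P : Subgroup G).subtype_injective])
  have card : Nat.card U = 9 := by rw [hU, card_map_of_injective (P : Subgroup G).subtype_injective, k3]; rfl
  have el : IsElementaryAbelian 3 U :=
    ⟨PGroup.isMulCommutative_iff.2 fun a ha b hb => ab a (UΩ ha).1 b (UΩ hb).1, fun a ha => (UΩ ha).2⟩
  have g1 : ∀ e : G, orderOf e = 3 → e ∈ centralizer (U : Set G) → Odd (Nat.card (th e)) := fun e o he =>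
    odd_th loc el (by omega) (o ▸ pow_orderOf_eq_one e) (fun u hu => mem_centralizer_singleton_iff.2 (he u hu))
      fun u hu _ => odd_of_inv (P.isPGroup'.to_le hB.1)
        (le_trans (fun b hb => mem_centralizer_singleton_iff.2 (ab b hb u (UΩ hu).1)) (le_norm_th u)) (cop_th u)
        fun T _ i => inv_scn P hB hB3 hP h3 i
  refine ⟨U, loc, le, norm, el, card, g1, fun a o A eA lA cA => ?_⟩
  obtain ⟨g, -, hg⟩ := (Tech.IsSylowIn.of_sylow_top P).exists_cj_le (KM.el_pgroup eA) le_top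
  have eA' : IsElementaryAbelian 3 (Tech.cj g A) := ⟨le_centralizer_iff_isMulCommutative.1 (by
      rw [← Tech.cj_centralizer]; exact Tech.cj_mono g (KM.el_le eA)), by
    rintro _ ⟨b, hb, rfl⟩
    rw [← map_pow, eA.2 b hb, map_one]⟩
  have i1 := (relIndex_le_of_le_right (H := centralizer (U : Set G)) hg index_ne_zero_of_finite).trans
    (relIndex_cent P.isPGroup' le norm card)
  have i2 := card_inf_mul (centralizer (U : Set G)) (Tech.cj g A)
  rw [Tech.card_cj] at i2
  rw [← card_th_conj g a]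
  refine odd_th loc (KM.el_mono eA' (inf_le_left (b := centralizer (U : Set G)))) (by nlinarith)
    (by rw [conj_pow, ← o, pow_orderOf_eq_one, mul_one, mul_inv_cancel]) (inf_le_left.trans ?_)
    fun e he o' => g1 e o' he.2
  rw [← Tech.cj_centralizer_singleton]
  exact Tech.cj_mono g lA

end CfsgLib.Mas
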