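import Mathlib
import Cfsg.Agent.Lib.Mas.Defs

/-!
A four-group with a fixed point free element of order 3 acting on a 3-group (plans/MAS.md, L1A).
-/

set_option autoImplicit false
set_option Elab.async false
set_option linter.unusedSectionVars false

namespace CfsgLib.Mas

open Cfsg Subgroup

variable {Y : Type*} [Group Y] [Finite Y]

theorem l1a_sq {a : Y} (h : a * a = 1) (y : Y) : y * a * y⁻¹ * (y * a * y⁻¹) = 1 := by
  rw [show y * a * y⁻¹ * (y * a * y⁻¹) = y * (a * a) * y⁻¹ by group, h]; group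

theorem l1a_conj {a b : Y} (h : a * b * a⁻¹ = b⁻¹) (y : Y) :
    y * a * y⁻¹ * (y * b * y⁻¹) * (y * a * y⁻¹)⁻¹ = (y * b * y⁻¹)⁻¹ := by
  rw [conj_inv (a := b), ← h]; group

theorem l1a_card {A B U : Subgroup Y} (hA : A ≤ U) (hB : B ≤ U) (h : ∀ x ∈ A, x ∈ B → x = 1) :
    Nat.card A * Nat.card B ≤ Nat.card U := by
  rw [← Nat.card_prod]
  refine Nat.card_le_card_of_injective
    (fun p : A × B => (⟨p.1 * p.2, mul_mem (hA p.1.2) (hB p.2.2)⟩ : U)) fun p q e => ?_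
  have e1 : (p.1 : Y) * p.2 = q.1 * q.2 := congrArg Subtype.val e
  have e2 : (q.1 : Y)⁻¹ * p.1 = q.2 * (p.2 : Y)⁻¹ := by
    rw [inv_mul_eq_iff_eq_mul, ← mul_assoc, ← e1, mul_inv_cancel_right]
  have e3 := h _ (mul_mem (inv_mem q.1.2) p.1.2) (e2 ▸ mul_mem q.2.2 (inv_mem p.2.2))
  refine Prod.ext (Subtype.ext (inv_mul_eq_one.1 e3).symm) (Subtype.ext ?_)
  rw [e3] at e2
  exact (mul_inv_eq_one.1 e2.symm).symm

theorem l1a_gen {W K : Subgroup Y} {t x : Y} (hW : IsPGroup 3 W) (t2 : t * t = 1)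
    (x2 : x * x = 1) (hc : t * x = x * t) (t1 : t ≠ 1) (x1 : x ≠ 1) (tx : t * x ≠ 1)
    (ht : t ∈ normalizer (W : Set Y)) (hx : x ∈ normalizer (W : Set Y))
    (h1 : W ⊓ centralizer {t} ≤ K) (h2 : W ⊓ centralizer {x} ≤ K)
    (h3 : W ⊓ centralizer {t * x} ≤ K) : W ≤ K := by
  have t2' : ∀ y, t * (t * y) = y := fun y => by rw [← mul_assoc, t2, one_mul]
  have x2' : ∀ y, x * (x * y) = y := fun y => by rw [← mul_assoc, x2, one_mul]
  have hc' : ∀ y, x * (t * y) = t * (x * y) := fun y => by rw [← mul_assoc, ← hc, mul_assoc]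
  let A : Subgroup Y :=
    { carrier := {a | a = 1 ∨ a = t ∨ a = x ∨ a = t * x}
      one_mem' := Or.inl rfl
      mul_mem' := by
        rintro a b (ha | ha | ha | ha) (hb | hb | hb | hb) <;>
          simp [ha, hb, t2, x2, t2', x2', hc', ← hc, mul_assoc]
      inv_mem' := by
        rintro a (ha | ha | ha | ha) <;>
          simp [ha, inv_eq_of_mul_eq_one_right t2, inv_eq_of_mul_eq_one_right x2, ← hc] }
  have hsq : ∀ a ∈ A, a * a = 1 := by
    rintro a (ha | ha | ha | ha) <;> simp [ha, t2, x2, t2', hc', mul_assoc]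
  have : IsMulCommutative A := ⟨⟨fun a b => Subtype.ext
    (KM.comm_of_mul_sq (hsq a a.2) (hsq b b.2) (hsq _ (A.mul_mem a.2 b.2)))⟩⟩
  have hA : IsPGroup 2 A := fun a => ⟨1, Subtype.ext (by
    rw [pow_one, SubmonoidClass.coe_pow, pow_two]; exact hsq a a.2)⟩
  refine Coprime.le_of_forall_centralizer_le (A := A) (fun hcy => ?_) ?_
    (cop_of hW (cop_two hA)).symm ?_
  · obtain ⟨g, hg⟩ := IsCyclic.exists_generator (α := A)
    have hgen : ∀ a : A, a = 1 ∨ a = g := fun a =>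
      (KM.mem_zpowers_iff_of_sq (Subtype.ext (hsq g g.2))).1 (hg a)
    rcases hgen ⟨t, Or.inr (Or.inl rfl)⟩ with e | e
    · exact t1 (congrArg Subtype.val e)
    rcases hgen ⟨x, Or.inr (Or.inr (Or.inl rfl))⟩ with f | f
    · exact x1 (congrArg Subtype.val f)
    have : t = x := congrArg Subtype.val (e.trans f.symm)
    exact tx (by rw [← this, t2])
  · rintro a (rfl | rfl | rfl | rfl)
    exacts [one_mem _, ht, hx, mul_mem ht hx]
  · rintro a (rfl | rfl | rfl | rfl) ha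
    exacts [(ha rfl).elim, h1, h2, h3]

/-- the four-group `{1, u, w, u w}` is cycled by `y` -/
structure L1aF (y u w : Y) : Prop where
  y3 : y ^ 3 = 1
  uu : u * u = 1
  u1 : u ≠ 1
  hw : y * u * y⁻¹ = w
  hx : y * w * y⁻¹ = u * w

namespace L1aF

variable {y u w : Y} (F : L1aF y u w)
include F

theorem ww : w * w = 1 := F.hw ▸ l1a_sq F.uu y

theorem comm : u * w = w * u := KM.comm_of_mul_sq F.uu F.ww (F.hx ▸ l1a_sq F.ww y)

theorem back : y * (u * w) * y⁻¹ = u := by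
  rw [← conj_mul, F.hw, F.hx, F.comm, ← mul_assoc, F.ww, one_mul]

theorem key {K : Subgroup Y} (hK : IsPGroup 3 K) (hu : u ∈ normalizer (K : Set Y))
    (hy : y ∈ normalizer (K : Set Y)) (hn : ¬ K ≤ centralizer {u}) :
    ∃ r ∈ K, r ≠ 1 ∧ r ^ 3 = 1 ∧ u * r = r * u ∧ w * r * w⁻¹ = r⁻¹ := by
  have : Fact (Nat.Prime 3) := ⟨Nat.prime_three⟩
  have w1 : w ≠ 1 := fun e => F.u1 (conj_eq_one_iff.1 (F.hw.trans e))
  have A : ∀ t, t * u = u * t → ¬ K ⊓ centralizer {t} ≤ centralizer {u} →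
      ∃ b ∈ K, b ≠ 1 ∧ t * b * t⁻¹ = b ∧ u * b * u⁻¹ = b⁻¹ := fun t ht h => by
    obtain ⟨a, ha, h2⟩ := SetLike.not_le_iff_exists.1 h
    have h3 := mem_centralizer_singleton_iff.1 ha.2
    refine ⟨a⁻¹ * (u * a * u⁻¹), K.mul_mem (K.inv_mem ha.1) (Tech.conj_mem_of_mem_normalizer hu ha.1),
      fun e => h2 (mem_centralizer_singleton_iff.2 ?_), ?_, ?_⟩
    · rw [inv_mul_eq_one, eq_mul_inv_iff_mul_eq] at e
      exact e
    · calc _ = (t * a * t⁻¹)⁻¹ * (t * u * t⁻¹ * (t * a * t⁻¹) * (t * u * t⁻¹)⁻¹) := by group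
        _ = _ := by rw [ht, ← h3, mul_inv_cancel_right, mul_inv_cancel_right]
    · calc _ = u * a⁻¹ * u⁻¹ * (u * u * a * (u * u)⁻¹) := by simp [mul_assoc]
        _ = _ := by rw [F.uu]; group
  have B : ∃ b ∈ K, b ≠ 1 ∧ u * b * u⁻¹ = b ∧ w * b * w⁻¹ = b⁻¹ := by
    by_cases h1 : K ⊓ centralizer {w} ≤ centralizer {u}
    · obtain ⟨b, hb, b1, e1, e2⟩ := A (u * w) (by rw [mul_assoc, F.comm]) fun h2 => hn
        (l1a_gen hK F.uu F.ww F.comm F.u1 w1 (fun e => w1 (conj_eq_one_iff.1 (F.hx.trans e))) hu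
          (F.hw ▸ mul_mem (mul_mem hy hu) (inv_mem hy)) inf_le_right h1 h2)
      refine ⟨y * b * y⁻¹, Tech.conj_mem_of_mem_normalizer hy hb, fun e => b1 (conj_eq_one_iff.1 e), ?_,
        F.hw ▸ l1a_conj e2 y⟩
      conv_rhs => rw [← e1]
      conv_lhs => rw [← F.back]
      group
    · obtain ⟨b, hb, b1, e1, e2⟩ := A w F.comm.symm h1
      have e3 : u * (y⁻¹ * b * y⁻¹⁻¹) * u⁻¹ = y⁻¹ * b * y⁻¹⁻¹ := by
        conv_rhs => rw [← e1, ← F.hw]
        group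
      have e4 := l1a_conj e2 y⁻¹
      rw [show y⁻¹ * u * y⁻¹⁻¹ = w * u by rw [← F.comm]; (conv_lhs => rw [← F.back]); group] at e4
      refine ⟨y⁻¹ * b * y⁻¹⁻¹, Tech.conj_mem_of_mem_normalizer (inv_mem hy) hb,
        fun e => b1 (conj_eq_one_iff.1 e), e3, ?_⟩
      rw [← e4]
      conv_lhs => rw [← e3]
      group
  obtain ⟨b, hb, b1, e1, e2⟩ := B
  obtain ⟨_, ⟨k, rfl⟩, hr⟩ := Core.exists_mem_orderOf_eq_of_isPGroup (hK.to_le (zpowers_le.2 hb))
    (zpowers_ne_bot.2 b1)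
  refine ⟨_, zpow_mem hb k, fun e => by simp [e] at hr, hr ▸ pow_orderOf_eq_one _, ?_, ?_⟩
  · rw [← mul_inv_eq_iff_eq_mul, ← conj_zpow, e1]
  · rw [← conj_zpow, e2, inv_zpow]

open scoped commutatorElement in
theorem exists_comm {R : Subgroup Y} (hR : IsPGroup 3 R) (hN : ⊤ ≤ normalizer (R : Set Y))
    (hn : ¬ R ≤ centralizer {u}) : ∃ r ∈ R, r ≠ 1 ∧ r ^ 3 = 1 ∧ u * r = r * u ∧ w * r * w⁻¹ = r⁻¹ ∧
      r * (y * r * y⁻¹) = y * r * y⁻¹ * r := by
  obtain ⟨K, hK, ⟨h1, h2, h3⟩, mn⟩ := exists_minimal_le_of_wellFoundedLT (fun K : Subgroup Y =>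
    u ∈ normalizer (K : Set Y) ∧ y ∈ normalizer (K : Set Y) ∧ ¬ K ≤ centralizer {u}) R
    ⟨hN (mem_top _), hN (mem_top _), hn⟩
  have hK3 := hR.to_le hK
  obtain ⟨r, hr, r1, r3, ur, wr⟩ := F.key hK3 h1 h2 h3
  refine ⟨r, hK hr, r1, r3, ur, wr, ?_⟩
  have := solv3 hK3
  have lt := Core.commutator_self_lt_of_isSolvable (N := K) fun e => r1 (mem_bot.1 (e ▸ hr))
  have N : ∀ g ∈ normalizer (K : Set Y), g ∈ normalizer ((⁅K, K⁆ : Subgroup Y) : Set Y) := fun g hg => by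
    rw [Tech.mem_normalizer_iff_cj] at hg ⊢
    rw [Tech.cj_commutator, hg]
  have h4 : ⁅K, K⁆ ≤ centralizer {u} := by_contra fun h => lt.not_ge (mn ⟨N u h1, N y h2, h⟩ lt.le)
  have xr : u * w * r * (u * w)⁻¹ = r⁻¹ := by
    rw [show u * w * r * (u * w)⁻¹ = u * (w * r * w⁻¹) * u⁻¹ by group, wr, ← conj_inv, ur,
      mul_inv_cancel_right]
  have us := l1a_conj xr y
  rw [F.back] at us
  have hs := Tech.conj_mem_of_mem_normalizer h2 hr
  have s3 : (y * r * y⁻¹) ^ 3 = 1 := by rw [conj_pow, r3]; group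
  generalize y * r * y⁻¹ = s at us hs s3
  have hc := commutator_mem_commutator hr hs
  have h5 := mem_centralizer_singleton_iff.1 (h4 hc)
  have h6 : s * ⁅r, s⁆ * s⁻¹ = ⁅r, s⁆⁻¹ := by
    have h7 : ⁅r, s⁆ = r * s⁻¹ * r⁻¹ * s := by
      calc _ = u * ⁅r, s⁆ * u⁻¹ := by rw [← h5, mul_inv_cancel_right]
        _ = u * r * u⁻¹ * (u * s * u⁻¹) * (u * r * u⁻¹)⁻¹ * (u * s * u⁻¹)⁻¹ := by
          rw [commutatorElement_def]; group
        _ = _ := by rw [us, ur, mul_inv_cancel_right, inv_inv]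
    conv_lhs => rw [h7]
    rw [commutatorElement_def]; group
  refine commutatorElement_eq_one_iff_mul_comm.1 (KM.eq_one_of_odd_of_two_pow
    (KM.odd_of_mem (KM.odd_card Nat.prime_three (by decide) hK3) (lt.le hc)) (k := 1) ?_)
  generalize ⁅r, s⁆ = c at h6
  have h8 : c = c⁻¹ := by
    calc c = s ^ 3 * c * (s ^ 3)⁻¹ := by simp [s3]
      _ = s * (s * (s * c * s⁻¹) * s⁻¹) * s⁻¹ := by simp [pow_succ, mul_assoc]
      _ = c⁻¹ := by rw [h6, ← conj_inv, h6, inv_inv, h6]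
  rw [pow_one, pow_two]
  nth_rw 1 [h8]; group

end L1aF

/-- A four-group cycled by `y`. -/
theorem four {y : Y} (y3 : y ^ 3 = 1) {T : Subgroup Y} (hT : IsPGroup 2 T) (h1 : T ≠ ⊥)
    (hn : y ∈ normalizer (T : Set Y)) (hf : ∀ t ∈ T, y * t = t * y → t = 1) :
    ∃ v ∈ T, v ≠ 1 ∧ v * v = 1 ∧ v * (y * v * y⁻¹) * (y ^ 2 * v * (y ^ 2)⁻¹) = 1 := by
  obtain ⟨a, ha, a2, hc⟩ := Tech.exists_mem_center_of_normalized hT le_rfl le_normalizer h1
  have aa := Tech.mul_self_of_orderOf_two a2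
  have hb := Tech.conj_mem_of_mem_normalizer hn ha
  have bb := l1a_sq aa y
  have cc := l1a_sq bb y
  have y3' : y * y * y = 1 := by simpa [pow_succ] using y3
  refine ⟨a * (y * a * y⁻¹), mul_mem ha hb, fun e => Tech.ne_one_of_orderOf_two a2 (hf a ha ?_), ?_, ?_⟩
  · rw [← aa, mul_right_inj, mul_inv_eq_iff_eq_mul] at e
    exact e
  · rw [mul_assoc, ← mul_assoc (y * a * y⁻¹) a, hc _ hb, mul_assoc a, bb, mul_one, aa]
  · have e : y ^ 2 * (a * (y * a * y⁻¹)) * (y ^ 2)⁻¹ = y * (y * a * y⁻¹) * y⁻¹ * a := by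
      calc _ = y * (y * a * y⁻¹) * y⁻¹ * (y * y * y * a * (y * y * y)⁻¹) := by simp [pow_two, mul_assoc]
        _ = _ := by rw [y3']; simp
    have e' : y * (a * (y * a * y⁻¹)) * y⁻¹ = y * a * y⁻¹ * (y * (y * a * y⁻¹) * y⁻¹) := by group
    rw [e, e']
    generalize y * (y * a * y⁻¹) * y⁻¹ = c at cc
    generalize y * a * y⁻¹ = b at bb
    calc _ = a * (b * b) * (c * c) * a := by group
      _ = _ := by rw [bb, cc, mul_one, mul_one, aa]

theorem l1 (hY : centralizer (pCore 3 Y : Set Y) ≤ pCore 3 Y) {y : Y} (y3 : y ^ 3 = 1) {T : Subgroup Y}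
    (hT : IsPGroup 2 T) (h1 : T ≠ ⊥) (hn : y ∈ normalizer (T : Set Y)) (hf : ∀ t ∈ T, y * t = t * y → t = 1) :
    (∃ A : Subgroup Y, IsElementaryAbelian 3 A ∧ Nat.card A = 27) ∧
    (∃ s : Y, s ^ 3 = 1 ∧ s * y = y * s ∧ ∀ (i : ℕ), ∀ c ∈ centralizer (T : Set Y), s ≠ y ^ i * c) ∧
    ∀ S : Subgroup Y, pCore 3 Y ≤ S → y ∈ S →
      9 * Nat.card (S ⊓ centralizer ({y} : Set Y) : Subgroup Y) ≤ Nat.card S := by
  have : Fact (Nat.Prime 3) := ⟨Nat.prime_three⟩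
  obtain ⟨u, hu, u1, uu, e⟩ := four y3 hT h1 hn hf
  have hR := Core.isPGroup_pCore 3 Y
  have RT : ∀ g ∈ pCore 3 Y, g ∈ T → g = 1 := fun g h1 h2 =>
    disjoint_def.1 (IsPGroup.disjoint_of_ne 3 2 (by decide) _ _ hR hT) h1 h2
  obtain ⟨w, hw⟩ : ∃ w, y * u * y⁻¹ = w := ⟨_, rfl⟩
  have F : L1aF y u w := ⟨y3, uu, u1, hw, by
    rw [hw] at e
    rw [eq_inv_of_mul_eq_one_left e, inv_eq_of_mul_eq_one_right (l1a_sq uu (y ^ 2)), ← hw]
    simp [pow_two, mul_assoc]⟩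
  obtain ⟨r, hr, r1, r3, ur, wr, c12⟩ := F.exists_comm hR le_normalizer_of_normal
    fun h => u1 (RT u (hY fun g hg => mem_centralizer_singleton_iff.1 (h hg)) hu)
  obtain ⟨s, hs⟩ : ∃ s, y * r * y⁻¹ = s := ⟨_, rfl⟩
  obtain ⟨t, ht⟩ : ∃ t, y * s * y⁻¹ = t := ⟨_, rfl⟩
  rw [hs] at c12
  have y3' : y * y * y = 1 := by simpa [pow_succ] using y3
  have hr' : y * t * y⁻¹ = r := by
    calc _ = y * y * y * r * (y * y * y)⁻¹ := by simp [← ht, ← hs, mul_assoc]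
      _ = r := by simp [y3']
  have hsR : s ∈ pCore 3 Y := hs ▸ (pCore_normal 3 Y).conj_mem r hr y
  have htR : t ∈ pCore 3 Y := ht ▸ (pCore_normal 3 Y).conj_mem s hsR y
  have O : ∀ g ∈ pCore 3 Y, g * g = 1 → g = 1 := fun g hg e =>
    KM.eq_one_of_odd_of_two_pow (KM.odd_of_mem (KM.odd_card Nat.prime_three (by decide) hR) hg)
      (k := 1) (by rwa [pow_one, pow_two])
  have s1 : s ≠ 1 := fun e => r1 (conj_eq_one_iff.1 (hs.trans e))
  have t1 : t ≠ 1 := fun e => s1 (conj_eq_one_iff.1 (ht.trans e))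
  have s3 : s ^ 3 = 1 := by rw [← hs, conj_pow, r3]; group
  have t3 : t ^ 3 = 1 := by rw [← ht, conj_pow, s3]; group
  have c23 : s * t = t * s := by
    have := congrArg (fun g => y * g * y⁻¹) c12
    simpa only [← conj_mul, hs, ht] using this
  have c31 : t * r = r * t := by
    have := congrArg (fun g => y * g * y⁻¹) c23
    simpa only [← conj_mul, hr', ht] using this
  have xr : u * w * r * (u * w)⁻¹ = r⁻¹ := by
    rw [show u * w * r * (u * w)⁻¹ = u * (w * r * w⁻¹) * u⁻¹ by group, wr, ← conj_inv, ur,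
      mul_inv_cancel_right]
  have xs : u * w * s * (u * w)⁻¹ = s⁻¹ := by rw [← F.hx, ← hs]; exact l1a_conj wr y
  have us : u * s * u⁻¹ = s⁻¹ := by rw [← F.back, ← hs]; exact l1a_conj xr y
  have ut : u * t * u⁻¹ = t⁻¹ := by rw [← F.back, ← ht]; exact l1a_conj xs y
  have wt : w * t * w⁻¹ = t⁻¹ := by rw [← hw, ← ht]; exact l1a_conj us y
  have ws : w * s = s * w := by
    have := congrArg (fun g => y * g * y⁻¹) ur
    simpa only [← conj_mul, hs, hw] using this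
  have e1 : IsElementaryAbelian 3 (zpowers r) := ⟨inferInstance, fun a ha => by
    obtain ⟨k, rfl⟩ := mem_zpowers_iff.1 ha
    rw [← zpow_natCast, ← zpow_mul, mul_comm, zpow_mul, zpow_natCast, r3, one_zpow]⟩
  have od : ∀ g : Y, g ^ 3 = 1 → Odd (orderOf g) := fun g e =>
    (show Odd 3 by decide).of_dvd_nat (orderOf_dvd_of_pow_eq_one e)
  have sr : s ∈ centralizer (zpowers r : Set Y) := by
    rw [cent_zpowers]; exact mem_centralizer_singleton_iff.2 c12.symm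
  obtain ⟨e2, k2⟩ := KM.el_ext Nat.prime_three e1 sr s3 (KM.not_mem_of_inv (by
    rw [cent_zpowers]; exact mem_centralizer_singleton_iff.2 ur) us (od s s3) s1)
  rw [Nat.card_zpowers, orderOf_eq_prime r3 r1] at k2
  have DR : zpowers r ⊔ zpowers s ≤ pCore 3 Y := sup_le (zpowers_le.2 hr) (zpowers_le.2 hsR)
  have hD : ∀ d ∈ zpowers r ⊔ zpowers s, u * w * d * (u * w)⁻¹ = d⁻¹ := fun d hd => by
    rw [← SetLike.mem_coe, coe_mul_of_right_le_normalizer_left _ _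
      (zpowers_le.2 (centralizer_le_normalizer _ sr))] at hd
    obtain ⟨_, ⟨a, rfl⟩, _, ⟨b, rfl⟩, rfl⟩ := hd
    simp only
    rw [← conj_mul, ← conj_zpow, ← conj_zpow, xr, xs, inv_zpow, inv_zpow, ← mul_inv_rev,
      (show Commute r s from c12).zpow_zpow]
  refine ⟨⟨_, KM.el_ext Nat.prime_three e2 (KM.mem_cent_sup (by
    rw [cent_zpowers]; exact mem_centralizer_singleton_iff.2 c31) c23.symm) t3 (fun h => ?_) |>.imp_right
      fun h => by rw [h, k2]⟩, ⟨r * s * t, ?_, ?_, fun i c hc e' => ?_⟩, fun S h2 _ => ?_⟩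
  · have h2 := hD t h
    rw [show u * w * t * (u * w)⁻¹ = u * (w * t * w⁻¹) * u⁻¹ by group, wt, ← conj_inv, ut, inv_inv] at h2
    exact t1 (O t htR (by nth_rw 1 [h2]; group))
  · rw [Commute.mul_pow, Commute.mul_pow c12, r3, s3, t3, mul_one, mul_one]
    exact Commute.mul_left c31.symm c23
  · rw [← mul_inv_eq_iff_eq_mul.1 (show y * (r * s * t) * y⁻¹ = r * s * t from ?_)]
    rw [← conj_mul, ← conj_mul, hs, ht, hr', mul_assoc, c31, ← mul_assoc, ← c12]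
  · have h2 : r * s * t * u * (r * s * t)⁻¹ ∈ T := by
      rw [e', show y ^ i * c * u * (y ^ i * c)⁻¹ = y ^ i * (c * u) * c⁻¹ * (y ^ i)⁻¹ by group,
        ← hc u hu, mul_assoc _ _ c⁻¹, mul_inv_cancel_right]
      exact Tech.conj_mem_of_mem_normalizer (pow_mem hn i) hu
    have h3 : r * s * t * u * (r * s * t)⁻¹ * u⁻¹ = r * (s * t * (s * t)) * r⁻¹ := by
      calc _ = r * s * t * (u * t * u⁻¹)⁻¹ * (u * s * u⁻¹)⁻¹ * (u * r * u⁻¹)⁻¹ := by group
        _ = r * (s * t * (t * s)) * r⁻¹ := by rw [ut, us, ur]; group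
        _ = _ := by rw [← c23]
    have h4 := RT _ ((pCore_normal 3 Y).conj_mem _ (mul_mem (mul_mem hsR htR) (mul_mem hsR htR)) r)
      (h3 ▸ mul_mem h2 (inv_mem hu))
    have h5 := O _ (mul_mem hsR htR) (conj_eq_one_iff.1 h4)
    have h6 : w * (s * t) * w⁻¹ = s * t⁻¹ := by rw [← conj_mul, wt, ws, mul_inv_cancel_right]
    rw [h5, mul_one, mul_inv_cancel, eq_comm, mul_inv_eq_one] at h6
    exact s1 (O s hsR (by rwa [← h6] at h5))
  · rw [← show Nat.card ↥(zpowers r ⊔ zpowers s) = 9 from k2]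
    refine l1a_card (DR.trans h2) inf_le_left fun d hd hd' => O d (DR hd) ?_
    have h3 : y * d * y⁻¹ = d := by
      rw [← mem_centralizer_singleton_iff.1 hd'.2, mul_inv_cancel_right]
    have h4 := hD d hd
    have h5 := l1a_conj h4 y
    rw [F.back, h3] at h5
    have h6 := l1a_conj h5 y
    rw [hw, h3] at h6
    rw [show u * w * d * (u * w)⁻¹ = u * (w * d * w⁻¹) * u⁻¹ by group, h6, ← conj_inv, h5, inv_inv] at h4
    nth_rw 1 [h4]; group

end CfsgLib.Mas
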