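import Mathlib
import Cfsg.Agent.Lib.Mas.L1a

/-!
Invariant 2-subgroups in the bad configuration (plans/MAS.md, L1B).
-/

set_option autoImplicit false
set_option Elab.async false
set_option linter.unusedSectionVars false

namespace CfsgLib.Mas

open Cfsg Subgroup

variable {G : Type*} [Group G] [Finite G]

theorem l1b_lift {Q : Type*} [Group Q] {f : G →* Q} (hf : Function.Surjective f)
    (hk : (Nat.card f.ker).Coprime 3) {P : Subgroup G} (hP : IsPGroup 3 P) {s : Q}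
    (hs : s ∈ centralizer (P.map f : Set Q)) (s3 : s ^ 3 = 1) :
    ∃ n ∈ centralizer (P : Set G), n ^ 3 = 1 ∧ f n = s := by
  have : Fact (Nat.Prime 3) := ⟨Nat.prime_three⟩
  obtain ⟨g, rfl⟩ := hf s
  obtain ⟨n, hn, e⟩ := PLocal.Constr.exists_mem_centralizer_of_coprime_ker hk hP hs
  have h1 : n ^ 3 ∈ f.ker := by rw [MonoidHom.mem_ker, map_pow, e, s3]
  have h2 : (n ^ 3) ^ Nat.card f.ker = 1 :=
    congrArg Subtype.val (pow_card_eq_one' (G := f.ker) (x := ⟨_, h1⟩))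
  generalize Nat.card f.ker = m at hk h2
  refine ⟨n ^ (m * m), pow_mem hn _, ?_, ?_⟩
  · rw [← pow_mul, mul_comm, pow_mul, pow_mul, h2, one_pow]
  · have h3 : m * m % 3 = 1 := by
      have := (Nat.Prime.coprime_iff_not_dvd Nat.prime_three).1 hk.symm
      have h4 : m % 3 = 1 ∨ m % 3 = 2 := by omega
      rcases h4 with k | k <;> simp [Nat.mul_mod, k]
    rw [map_pow, e, ← Nat.div_add_mod (m * m) 3, h3, pow_succ, pow_mul, s3, one_pow, one_mul]

theorem l1b_top (hX : IsPConstrained 3 G) {y : G} (y3 : y ^ 3 = 1) {T : Subgroup G}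
    (hT : IsPGroup 2 T) (h1 : ¬ T ≤ pPrimeCore 3 G) (hn : y ∈ normalizer (T : Set G))
    (hf : ∀ t ∈ T, y * t = t * y → t = 1) :
    (∃ A : Subgroup G, IsElementaryAbelian 3 A ∧ Nat.card A = 27) ∧
    (∃ s : G, s ^ 3 = 1 ∧ s * y = y * s ∧ ∀ (i : ℕ), ∀ c ∈ centralizer (T : Set G), s ≠ y ^ i * c) ∧
    ∀ S : Subgroup G, IsPGroup 3 S → ¬ 3 ∣ S.index → y ∈ S →
      9 * Nat.card (S ⊓ centralizer ({y} : Set G) : Subgroup G) ≤ Nat.card S := by
  have : Fact (Nat.Prime 3) := ⟨Nat.prime_three⟩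
  rw [PLocal.Constr.isPConstrained_iff] at hX
  have hk := PLocal.Constr.coprime_ker_mk' (G := G) (p := 3)
  have hs := QuotientGroup.mk'_surjective (pPrimeCore 3 G)
  have h1' : T.map (QuotientGroup.mk' (pPrimeCore 3 G)) ≠ ⊥ := fun e => h1 (by
    rwa [Subgroup.map_eq_bot_iff, QuotientGroup.ker_mk'] at e)
  generalize QuotientGroup.mk' (pPrimeCore 3 G) = f at hk hs h1'
  have C : ∀ P : Subgroup G, IsPGroup 3 P → Nat.card (P.map f) = Nat.card P := fun P hP => by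
    rw [← Core.card_map_mul_card_inf_ker f P, Core.isPGroup_inf_eq_bot_of_coprime hP hk, card_bot,
      mul_one]
  have I : ∀ P : Subgroup G, IsPGroup 3 P → ∀ a ∈ P, f a = 1 → a = 1 := fun P hP a ha e =>
    mem_bot.1 (Core.isPGroup_inf_eq_bot_of_coprime hP hk ▸ (⟨ha, e⟩ : a ∈ P ⊓ f.ker))
  have hy := pg_zpowers y3
  obtain ⟨⟨A, hA, cA⟩, ⟨s, s3, sy, k⟩, hS⟩ := l1 hX (y := f y) (by rw [← map_pow, y3, map_one])
    (hT.map f) h1' (le_normalizer_map f ⟨y, hn, rfl⟩) fun t ht e => by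
      have h2 := Coprime.map_inf_centralizer f (zpowers_le.2 hn)
        (cop_of hy (cop_two hT.to_inf_left)) (.inl (solv3 hy))
      rw [MonoidHom.map_zpowers, cent_zpowers, cent_zpowers] at h2
      obtain ⟨u, hu, rfl⟩ := h2.ge ⟨ht, mem_centralizer_singleton_iff.2 e.symm⟩
      rw [hf u hu.1 (mem_centralizer_singleton_iff.1 hu.2).symm, map_one]
  refine ⟨?_, ?_, fun S h2 h3 h4 => ?_⟩
  · obtain ⟨P, hP, rfl⟩ := PLocal.Constr.exists_isPGroup_map_eq hs (KM.el_pgroup hA)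
    refine ⟨P, ⟨Core.isMulCommutative_iff_forall.2 fun a ha b hb => ?_, fun a ha => ?_⟩,
      (C P hP).symm.trans cA⟩
    · refine mul_inv_eq_one.1 (I P hP _ (mul_mem (mul_mem ha hb) (inv_mem (mul_mem hb ha))) ?_)
      rw [map_mul, map_inv, map_mul, map_mul, KM.el_le hA (mem_map_of_mem f hb) _ (mem_map_of_mem f ha),
        mul_inv_cancel]
    · exact I P hP _ (pow_mem ha 3) (by rw [map_pow, hA.2 _ (mem_map_of_mem f ha)])
  · obtain ⟨n, h2, n3, rfl⟩ := l1b_lift hs hk hy (s := s) (by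
      rw [MonoidHom.map_zpowers, cent_zpowers]; exact mem_centralizer_singleton_iff.2 sy) s3
    refine ⟨n, n3, (h2 y (mem_zpowers y)).symm, fun i c hc e => k i (f c) ?_ (by
      rw [e, map_mul, map_pow])⟩
    rintro _ ⟨t, ht, rfl⟩
    rw [← map_mul, ← map_mul, hc t ht]
  · have h5 := hS (S.map f) (Core.pCore_le_sylow ((h2.map f).toSylow fun e =>
      h3 (e.trans (S.index_map_dvd hs)))) (mem_map_of_mem f h4)
    rw [C S h2] at h5
    refine le_trans (Nat.mul_le_mul_left _ ?_) h5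
    rw [← C _ h2.to_inf_left]
    refine card_le_of_le ?_
    rintro _ ⟨x, hx, rfl⟩
    exact ⟨mem_map_of_mem f hx.1, mem_centralizer_singleton_iff.2 (by
      rw [← map_mul, ← map_mul, mem_centralizer_singleton_iff.1 hx.2])⟩

/-- `l1` lifted to a 3-constrained subgroup. -/
theorem l1X {X : Subgroup G} (hX : IsPConstrained 3 X) {y : G} (hy : y ∈ X) (y3 : y ^ 3 = 1) {T : Subgroup G}
    (hTX : T ≤ X) (hT : IsPGroup 2 T) (h1 : ¬ T ≤ O3 X) (hn : y ∈ normalizer (T : Set G))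
    (hf : ∀ t ∈ T, y * t = t * y → t = 1) :
    (∃ A ≤ X, IsElementaryAbelian 3 A ∧ Nat.card A = 27) ∧
    (∃ s ∈ X, s ^ 3 = 1 ∧ s * y = y * s ∧ ∀ (i : ℕ), ∀ c ∈ X, c ∈ centralizer (T : Set G) → s ≠ y ^ i * c) ∧
    ∀ S ≤ X, IsPGroup 3 S → ¬ 3 ∣ S.relIndex X → y ∈ S →
      9 * Nat.card (S ⊓ centralizer ({y} : Set G) : Subgroup G) ≤ Nat.card S := by
  obtain ⟨⟨A, hA, cA⟩, ⟨s, s3, sy, hs⟩, hS⟩ := l1b_top hX (y := ⟨y, hy⟩) (Subtype.ext y3)
    (T := T.subgroupOf X) hT.comap_subtype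
    (fun e => h1 (map_subgroupOf_eq_of_le hTX ▸ map_mono e))
    (Tech.mem_normalizer_of_forall fun t ht => mem_subgroupOf.2
      (Tech.conj_mem_of_mem_normalizer (g := y) (x := (t : G)) hn ht))
    fun t ht e => Subtype.ext (hf t ht (congrArg Subtype.val e))
  refine ⟨⟨A.map X.subtype, map_subtype_le _, ⟨?_, ?_⟩, by rw [Core.card_map_subtype, cA]⟩,
    ⟨s, s.2, congrArg Subtype.val s3, congrArg Subtype.val sy, fun i c hc hc' e =>
      hs i ⟨c, hc⟩ (fun t ht => Subtype.ext (hc' t ht)) (Subtype.ext e)⟩, fun S h2 h3 h4 h5 => ?_⟩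
  · have := hA.1
    infer_instance
  · rintro _ ⟨a, ha, rfl⟩
    exact congrArg Subtype.val (hA.2 a ha)
  · have h6 := hS (S.subgroupOf X) h3.comap_subtype h4 h5
    rw [Core.card_subgroupOf_of_le h2] at h6
    refine le_trans (Nat.mul_le_mul_left _ ?_) h6
    rw [← Core.card_subgroupOf_of_le (inf_le_left.trans h2)]
    exact card_le_of_le fun x hx => ⟨hx.1, mem_centralizer_singleton_iff.2
      (Subtype.ext (mem_centralizer_singleton_iff.1 hx.2))⟩

namespace Bd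

variable {E T : Subgroup G} {z : G} (h : Bd E z)
include h

theorem z3 : orderOf z = 3 := by
  have : Fact (Nat.Prime 3) := ⟨Nat.prime_three⟩
  exact orderOf_eq_prime (h.el.2 z h.zE) h.z1

/-- `E = ⟨e⟩⟨z⟩`. -/
theorem gen {e c : G} (he : e ∈ E) (he' : e ∉ zpowers z) (hc : c ∈ E) : ∃ a b : ℕ, c = e ^ a * z ^ b := by
  have hz : zpowers z ≤ E := zpowers_le.2 h.zE
  have ez : e ∈ centralizer (zpowers z : Set G) := centralizer_le hz (KM.el_le h.el he)
  have k := (KM.el_ext Nat.prime_three (KM.el_mono h.el hz) ez (h.el.2 e he) he').2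
  rw [Nat.card_zpowers, h.z3] at k
  rw [← Core.eq_of_le_of_card_le (sup_le hz (zpowers_le.2 he)) (by rw [k, h.card]), sup_comm,
    Core.mem_sup_of_le_normalizer_right (zpowers_le.2 (centralizer_le_normalizer _ ez))] at hc
  obtain ⟨a, ha, b, hb, rfl⟩ := hc
  obtain ⟨a, rfl⟩ := mem_powers_iff_mem_zpowers.2 ha
  obtain ⟨b, rfl⟩ := mem_powers_iff_mem_zpowers.2 hb
  exact ⟨a, b, rfl⟩

theorem l1b_ex : ∃ e ∈ E, e ∉ zpowers z := by
  by_contra hn
  push Not at hn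
  have := card_le_of_le (show E ≤ zpowers z from hn)
  rw [Nat.card_zpowers, h.z3, h.card] at this
  omega

theorem l1b_cent {e g : G} (he : e ∈ E) (he' : e ∉ zpowers z) (h1 : e * g = g * e)
    (h2 : z * g = g * z) : g ∈ centralizer (E : Set G) := fun c hc => by
  obtain ⟨a, b, rfl⟩ := h.gen he he' hc
  exact (((show Commute e g from h1).pow_left a).mul_left ((show Commute z g from h2).pow_left b)).eq

theorem b1 {c : G} (c3 : c ^ 3 = 1) (hc : c ∈ centralizer (E : Set G)) : c ∈ E := by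
  by_contra hn
  obtain ⟨e, he, he'⟩ := h.l1b_ex
  obtain ⟨k1, k2⟩ := KM.el_ext Nat.prime_three h.el hc c3 hn
  have := h.no27 e he he' _ k1
    ((KM.el_le k1).trans (centralizer_le (Set.singleton_subset_iff.2 (mem_sup_left he))))
  rw [k2, h.card] at this
  omega

theorem b2 {s : G} (s2 : s * s = 1) (hs : s ∈ centralizer (E : Set G)) : s = 1 := by
  have : Fact (Nat.Prime 3) := ⟨Nat.prime_three⟩
  obtain ⟨k1, k2⟩ := h.loc.conC (KM.el_pgroup h.el) h.z3 h.zE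
    ((KM.el_le h.el).trans (centralizer_le (Set.singleton_subset_iff.2 h.zE)))
  rw [PLocal.Constr.isPConstrained_iff] at k1
  set f := QuotientGroup.mk' (pPrimeCore 3 (centralizer (E : Set G))) with hf
  have hR := Core.isPGroup_pCore 3 (centralizer (E : Set G) ⧸ pPrimeCore 3 (centralizer (E : Set G)))
  obtain ⟨σ, hσ⟩ : ∃ σ, f ⟨s, hs⟩ = σ := ⟨_, rfl⟩
  have σ2 : σ * σ = 1 := by rw [← hσ, ← map_mul, ← f.map_one]; exact congrArg f (Subtype.ext s2)
  have O : ∀ g ∈ pCore 3 (centralizer (E : Set G) ⧸ pPrimeCore 3 (centralizer (E : Set G))),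
      g * g = 1 → g = 1 := fun g hg e =>
    KM.eq_one_of_odd_of_two_pow (KM.odd_of_mem (KM.odd_card Nat.prime_three (by decide) hR) hg)
      (k := 1) (by rwa [pow_one, pow_two])
  have hc : σ ∈ centralizer (pCore 3 (centralizer (E : Set G) ⧸ pPrimeCore 3 (centralizer (E : Set G))) :
      Set (centralizer (E : Set G) ⧸ pPrimeCore 3 (centralizer (E : Set G)))) := fun a ha => by
    by_contra hn
    have hb := mul_mem (inv_mem ha) ((pCore_normal 3 _).conj_mem a ha σ)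
    have b1 : a⁻¹ * (σ * a * σ⁻¹) ≠ 1 := fun e => hn (by
      rwa [inv_mul_eq_one, eq_mul_inv_iff_mul_eq] at e)
    have e2 : σ * (a⁻¹ * (σ * a * σ⁻¹)) * σ⁻¹ = (a⁻¹ * (σ * a * σ⁻¹))⁻¹ := by
      calc _ = σ * a⁻¹ * σ⁻¹ * (σ * σ * a * (σ * σ)⁻¹) := by simp [mul_assoc]
        _ = _ := by rw [σ2]; group
    generalize a⁻¹ * (σ * a * σ⁻¹) = b at hb b1 e2
    obtain ⟨_, ⟨k, rfl⟩, hr⟩ := Core.exists_mem_orderOf_eq_of_isPGroup (hR.to_le (zpowers_le.2 hb))
      (zpowers_ne_bot.2 b1)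
    obtain ⟨n, -, n3, hn⟩ := l1b_lift (QuotientGroup.mk'_surjective _) PLocal.Constr.coprime_ker_mk'
      (P := ⊥) IsPGroup.of_bot (s := b ^ k) (by simp [mem_centralizer_iff])
      (orderOf_dvd_iff_pow_eq_one.1 hr.dvd)
    have e3 : σ * b ^ k * σ⁻¹ = b ^ k := by
      rw [mul_inv_eq_iff_eq_mul, ← hn, ← hσ, ← map_mul, ← map_mul]
      exact congrArg f (Subtype.ext (hs _ (h.b1 (congrArg Subtype.val n3) n.2)).symm)
    rw [← conj_zpow, e2, inv_zpow] at e3
    have e4 := O _ (zpow_mem hb k) (by nth_rw 1 [← e3]; group)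
    simp [e4] at hr
  have e5 := O σ (k1 hc) σ2
  rw [← hσ, hf, QuotientGroup.mk'_apply, QuotientGroup.eq_one_iff] at e5
  exact KM.eq_one_of_odd_of_two_pow (KM.odd_of_mem h.gz (k2 ⟨_, e5, rfl⟩)) (k := 1)
    (by rwa [pow_one, pow_two])

theorem l1b_one (hT : IsPGroup 2 T) {t : G} (ht : t ∈ T) {e : G} (he : e ∈ E) (he' : e ∉ zpowers z)
    (h1 : e * t = t * e) (h2 : z * t = t * z) : t = 1 := by
  by_contra t1
  obtain ⟨k, hk⟩ := Core.isPGroup_subgroup_iff.1 hT t ht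
  obtain ⟨s, hs, s1, s2⟩ := KM.exists_sq_eq_one_mem t1 hk
  exact s1 (h.b2 s2 (zpowers_le.2 (h.l1b_cent he he' h1 h2) hs))

theorem b3 (hT : Inv E T) {e : G} (he : e ∈ E) (he' : e ∉ zpowers z) (hc : T ≤ centralizer ({e} : Set G)) :
    T ≤ th e := by
  have : Fact (Nat.Prime 3) := ⟨Nat.prime_three⟩
  by_contra hn
  obtain ⟨⟨A, h1, h2, h3⟩, -⟩ := l1X
    (h.loc.con e (orderOf_eq_prime (h.el.2 e he) fun k => he' (k ▸ one_mem _)))
    (mem_centralizer_singleton_iff.2 (KM.el_le h.el he z h.zE)) (h.el.2 z h.zE) hc hT.two hn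
    (hT.norm h.zE) fun t ht k => h.l1b_one hT.two ht he he'
      (mem_centralizer_singleton_iff.1 (hc ht)).symm k
  have := h.no27 e he he' A h2 h1
  omega

theorem b4 (hT : Inv E T) {t : G} (ht : t ∈ T) (c : z * t = t * z) : t = 1 := by
  by_contra t1
  obtain ⟨e, he, he'⟩ := h.l1b_ex
  have ez : e ∈ centralizer ({z} : Set G) := mem_centralizer_singleton_iff.2 (KM.el_le h.el h.zE e he)
  have h0 : IsPGroup 2 ↥(T ⊓ centralizer ({z} : Set G)) := hT.two.to_inf_left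
  obtain ⟨-, ⟨s, hs, s3, se, k⟩, -⟩ := l1X (h.loc.con z h.z3) ez (h.el.2 e he) inf_le_right h0
    (fun k => t1 (mem_bot.1 (eq_bot_of_odd h0 k h.gz ▸
      (⟨ht, mem_centralizer_singleton_iff.2 c.symm⟩ : t ∈ T ⊓ centralizer ({z} : Set G)))))
    (inf_normalizer_le_normalizer_inf ⟨hT.norm he, le_normalizer ez⟩)
    fun u hu k => h.l1b_one hT.two hu.1 he he' k (mem_centralizer_singleton_iff.1 hu.2).symm
  obtain ⟨a, b, rfl⟩ := h.gen he he'
    (h.b1 s3 (h.l1b_cent he he' se.symm (mem_centralizer_singleton_iff.1 hs).symm))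
  exact k a _ (pow_mem (mem_centralizer_singleton_iff.2 rfl) b)
    (pow_mem (mem_centralizer_iff.2 fun u hu => mem_centralizer_singleton_iff.1 hu.2) b) rfl

end Bd

end CfsgLib.Mas
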