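import Mathlib
import Cfsg.Agent.Lib.Mas.Defs
import Cfsg.Agent.Lib.Dickson.TwoTransv
import Cfsg.Agent.Lib.Dickson.MinSimple

/-!
Subgroups of `PGL₂` in characteristic 2 containing a four-group (plans/MAS.md, FLD).
-/

set_option autoImplicit false
set_option linter.unusedSectionVars false

namespace CfsgLib.Mas

open Cfsg Subgroup CfsgLib.Dickson
open scoped MatrixGroups

variable {K : Type} [Field K] [CharP K 2]

open P1 in
theorem field (G : Subgroup PGL(2, K)) [Finite G] {ω d : K} (h0 : ω ≠ 0) (h1 : ω ≠ 1) (hd : d ≠ 0)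
    (a1 : aff 1 1 one_ne_zero ∈ G) (a2 : aff 1 ω one_ne_zero ∈ G) (a3 : pm 1 0 d 1 (by simp) ∈ G) :
    pm 1 0 1 1 (by simp) ∈ G ∧ IsSimpleGroup G := by
  have h := (mob_bar (F := K) 2).subgroup G
  have hm : ∀ (x : P1 K) (g : PGL(2, K)) (hg : g ∈ G), IsUnip x g → (⟨g, hg⟩ : G) ∈ h.U (emb x) :=
    fun x g hg hx => isUnip_coe.mp (isUnip_emb_iff.mpr hx)
  have hne : ∀ (x : P1 K) (g : PGL(2, K)), g ∈ G → IsUnip x g → g ≠ 1 → h.U (emb x) ≠ ⊥ := by
    intro x g hg hx h1 e
    have := hm x g hg hx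
    rw [e, Subgroup.mem_bot] at this
    exact h1 (congrArg Subtype.val this)
  have hx := hne inf _ a1 (isUnip_inf_iff.mpr ⟨1, rfl⟩) (fun e => one_ne_zero (aff_eq_one_iff.mp e).2)
  have hz := hne (pt 0) _ a3 (isUnip_zero_lower d) (fun e => hd (pm_eq_one_iff.mp e).2.1)
  have hv1 : (pm 1 0 d 1 (by simp) : PGL(2, K)) • (inf : P1 K) = pt d⁻¹ :=
    pm_smul_inf_eq_pt.mpr (by simp [hd])
  rcases h.irregular hx with c1 | ⟨c1, -⟩ | ⟨y, q, d', N, e, I⟩
  · exact absurd (hv1.symm.trans (smul_emb_eq_iff.mp (c1 ⟨_, a3⟩))) (pt_ne_inf _)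
  · obtain ⟨u, -, hu⟩ := (Nat.card_eq_two_iff' (1 : h.U (emb inf))).1 c1
    have e1 := hu ⟨_, hm inf _ a1 (isUnip_inf_iff.mpr ⟨1, rfl⟩)⟩
      (fun e => one_ne_zero ((aff_eq_one_iff (ha := one_ne_zero)).mp (congrArg (fun t => (t.1 : PGL(2, K))) e)).2)
    have e2 := hu ⟨_, hm inf _ a2 (isUnip_inf_iff.mpr ⟨ω, rfl⟩)⟩
      (fun e => h0 ((aff_eq_one_iff (ha := one_ne_zero)).mp (congrArg (fun t => (t.1 : PGL(2, K))) e)).2)
    exact absurd ((aff_inj (ha := one_ne_zero) (ha' := one_ne_zero)).mp (congrArg (fun t => (t.1 : PGL(2, K))) (e2.trans e1.symm))).2 h1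
  obtain ⟨n, hn⟩ := (h.isPGroup_U (emb inf)).exists_card_eq
  rw [I.card_U] at hn
  have q3 := I.three_le
  have q2 : 2 ∣ q := by
    rcases n with _ | n
    · omega
    · exact hn ▸ dvd_pow_self 2 n.succ_ne_zero
  rcases I.cases with ⟨rfl, t, ht, htd, -⟩ | hc
  · have t1 : t = 1 := ht.resolve_right (by rintro rfl; omega)
    have h0' := h.mem_orbit_of_U_ne_bot hx hz
    have h1' : emb (pt 1 : P1 K) ∈ MulAction.orbit G (emb (inf : P1 K)) := by
      have h2 := h.orbit_inv _ ⟨_, a1⟩ _ h0'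
      have : (⟨_, a1⟩ : G) • emb (pt 0 : P1 K) = emb (pt 1) :=
        smul_emb_eq_iff.mpr (by rw [aff_smul_pt]; simp)
      rwa [this] at h2
    rw [← one_smul PGL(2, K) (inf : P1 K)] at I
    obtain ⟨F, hK1, hK2, -, hK4, -⟩ := I.exists_subfield 1 ht htd (by simpa using h0') (by simpa using h1')
    have hG := hK4 t1
    rw [map_conj_one] at hG
    have top : (pslPGL F).range = ⊤ := index_eq_one.1 (index_psl_even (by rw [hK2]; exact even_iff_two_dvd.2 q2))
    have hG' : G = (pslMap F.subtype).range := by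
      rw [hG, pslMap, MonoidHom.range_comp, top, ← MonoidHom.range_eq_map]
    refine ⟨?_, ?_⟩
    · rw [hG]
      exact ⟨pm 1 0 1 1 (by simp), (map_pm _ _ _ _ _ _).trans (pm_congr rfl rfl rfl rfl)⟩
    · have := psl_isSimpleGroup (F := F) (by omega)
      rw [hG']
      exact (MonoidHom.ofInjective (pslMap_injective F.subtype)).symm.isSimpleGroup
  · omega

theorem eq_tau {x : PGL(2, K)} {d : K} (hd : d ≠ 0) (c : x * pm 1 0 d 1 (by simp) = pm 1 0 d 1 (by simp) * x)
    (c3 : (aff 1 1 one_ne_zero * x) ^ 3 = 1) : x = pm 1 0 1 1 (by simp) := by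
  obtain ⟨a, b, c', e, h, rfl⟩ := exists_pm x
  have two : (2 : K) = 0 := CharP.cast_eq_zero K 2
  rw [pm_mul, pm_mul, pm_eq_pm_iff] at c
  obtain ⟨u, e1, e2, e3, e4⟩ := c
  simp only [mul_one, one_mul, mul_zero, zero_mul, add_zero, zero_add] at e1 e2 e3 e4
  have hb : b = 0 := by
    by_contra hb
    have hu : u = 1 := mul_right_cancel₀ hb (by rw [← e2, one_mul])
    subst hu
    exact mul_ne_zero hb hd (by linear_combination -e1)
  subst hb
  have ha : a ≠ 0 := by rintro rfl; simp at h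
  have hu : u = 1 := mul_right_cancel₀ ha (by linear_combination -e1)
  subst hu
  have hae : a = e := mul_left_cancel₀ hd (by linear_combination e3)
  subst hae
  rw [aff, pm_mul, pow_succ, pow_two, pm_mul, pm_mul, pm_eq_one_iff] at c3
  have k : a * (a + c') ^ 2 = 0 := by
    linear_combination c3.1 - (a ^ 3 + a ^ 2 * c') * two
  have : c' = a := by
    have := pow_eq_zero_iff two_ne_zero |>.1 ((mul_eq_zero.1 k).resolve_left ha)
    linear_combination this - a * two
  subst this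
  exact (pm_eq_pm_iff.2 ⟨c', by ring, by ring, by ring, by ring⟩).symm

theorem tau_three : (aff 1 1 one_ne_zero * pm 1 0 1 1 (by simp) : PGL(2, K)) ^ 3 = 1 := by
  have two : (2 : K) = 0 := CharP.cast_eq_zero K 2
  rw [aff, pm_mul, pow_succ, pow_two, pm_mul, pm_mul, pm_eq_one_iff]
  exact ⟨by linear_combination 4 * two, by linear_combination 4 * two, by linear_combination 4 * two⟩

theorem fam {L : Type*} [Group L] [Finite L] {ι : Type*} [Finite ι] (ρ : ι → L →* PGL(2, K)) {w w₁ w' : L}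
    {ω : K} (h0 : ω ≠ 0) (h1 : ω ≠ 1) (d : ι → K) (hd : ∀ i, d i ≠ 0)
    (a1 : ∀ i, ρ i w = aff 1 1 one_ne_zero) (a2 : ∀ i, ρ i w₁ = aff 1 ω one_ne_zero)
    (a3 : ∀ i, ρ i w' = pm 1 0 (d i) 1 (by simp)) : ∃ g : L, ∀ i, ρ i g = pm 1 0 1 1 (by simp) := by
  classical
  have key : ∀ J : Finset ι, ∃ g : L, ∀ i ∈ J, ρ i g = pm 1 0 1 1 (by simp) := by
    intro J
    induction J using Finset.induction_on with
    | empty => exact ⟨1, by simp⟩
    | insert j J _ ih =>
      obtain ⟨g, hg⟩ := ih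
      have : Finite (ρ j).range := Finite.of_surjective _ (ρ j).rangeRestrict_surjective
      obtain ⟨m, s⟩ := field (ρ j).range h0 h1 (hd j) ⟨_, a1 j⟩ ⟨_, a2 j⟩ ⟨_, a3 j⟩
      let C : Subgroup L := ⨅ i ∈ J, (ρ i).ker
      have mC : ∀ k, k ∈ C ↔ ∀ i ∈ J, ρ i k = 1 := fun k => by simp [C, mem_iInf]
      have nC : C.Normal := ⟨fun k hk y => (mC _).2 fun i hi => by simp [(mC _).1 hk i hi]⟩
      rcases (nC.map _ (ρ j).rangeRestrict_surjective).eq_bot_or_eq_top with e | e
      · have z : ∀ k ∈ C, ρ j k = 1 := fun k hk => by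
          have : (ρ j).rangeRestrict k ∈ C.map (ρ j).rangeRestrict := mem_map_of_mem _ hk
          rw [e, mem_bot] at this
          exact congrArg Subtype.val this
        refine ⟨g, fun i hi => ?_⟩
        rcases Finset.mem_insert.1 hi with rfl | hi
        · refine eq_tau (hd i) ?_ ?_
          · have := z (g * w' * (w' * g)⁻¹) ((mC _).2 fun i hi => by
              rw [map_mul, map_inv, mul_inv_eq_one, map_mul, map_mul, hg i hi, a3, pm_mul, pm_mul]
              exact pm_congr (by ring) (by ring) (by ring) (by ring))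
            rwa [map_mul, map_inv, mul_inv_eq_one, map_mul, map_mul, a3] at this
          · have := z ((w * g) ^ 3) ((mC _).2 fun i hi => by rw [map_pow, map_mul, hg i hi, a1, tau_three])
            rwa [map_pow, map_mul, a1] at this
        · exact hg i hi
      · have : ((ρ j).rangeRestrict g)⁻¹ * ⟨_, m⟩ ∈ C.map (ρ j).rangeRestrict := e ▸ mem_top _
        obtain ⟨k, hk, ek⟩ := this
        have ek' : ρ j k = (ρ j g)⁻¹ * pm 1 0 1 1 (by simp) := congrArg Subtype.val ek
        refine ⟨g * k, fun i hi => ?_⟩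
        rcases Finset.mem_insert.1 hi with rfl | hi
        · rw [map_mul, ek', mul_inv_cancel_left]
        · rw [map_mul, (mC _).1 hk i hi, mul_one, hg i hi]
  have := Fintype.ofFinite ι
  obtain ⟨g, hg⟩ := key Finset.univ
  exact ⟨g, fun i => hg i (Finset.mem_univ i)⟩

end CfsgLib.Mas
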