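import Mathlib
import Cfsg.Agent.Lib.Mas.Defs
import Cfsg.Agent.Lib.Dickson.TwoTransv

/-!
Two quadratic four-groups normalized by an element of order 3 (plans/MAS.md, PA).
-/

set_option autoImplicit false
set_option linter.unusedSectionVars false

namespace CfsgLib.Mas

open Cfsg Subgroup CfsgLib.Dickson
open scoped MatrixGroups

variable {N : Type*} [Group N] {K : Type} [Field K] [CharP K 2] {V : Type} [AddCommGroup V] [Module K V]

/-- The hypotheses on the representation. -/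
structure Qd (φ : N →* Module.End K V) (z w w' : N) : Prop where
  z3 : z ^ 3 = 1
  hz : φ z * φ z + φ z + 1 = 0
  w2 : φ w * φ w = 1
  w3 : φ (w * (z * w * z⁻¹) * (z ^ 2 * w * (z ^ 2)⁻¹)) = 1
  w2' : φ w' * φ w' = 1
  w3' : φ (w' * (z * w' * z⁻¹) * (z ^ 2 * w' * (z ^ 2)⁻¹)) = 1

variable {φ : N →* Module.End K V} {z w w' : N}

theorem pa_two (x : Module.End K V) : x + x = 0 := by
  rw [← two_smul K x, CharTwo.two_eq_zero, zero_smul]

theorem pa_sub (x y : Module.End K V) : x + y = x - y := by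
  rw [sub_eq_add_neg, neg_eq_of_add_eq_zero_right (pa_two y)]

theorem pa_rel {R : Type*} [Ring R] (h2 : ∀ x : R, x + x = 0) {ζ a : R} (hz : ζ * ζ + ζ + 1 = 0) (ha : a * a = 1)
    (h3 : a * (ζ * a * (ζ * ζ)) * (ζ * ζ * a * ζ) = 1) :
    ζ * (a + 1) = (a + 1) * (ζ * ζ) ∧ (a + 1) * (a + 1) = 0 := by
  have z3 : ζ * ζ * ζ = 1 := by linear_combination (norm := noncomm_ring) ζ * hz - hz
  have e0 : ζ * a * ζ * a * ζ = a := by
    calc ζ * a * ζ * a * ζ = a * a * (ζ * a * (ζ * ζ * ζ) * ζ * a * ζ) := by rw [ha, z3]; noncomm_ring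
      _ = a * (a * (ζ * a * (ζ * ζ)) * (ζ * ζ * a * ζ)) := by noncomm_ring
      _ = a := by rw [h3, mul_one]
  have e1 : a * ζ * a = ζ * ζ * a * (ζ * ζ) := by
    calc a * ζ * a = ζ * ζ * ζ * (a * ζ * a) * (ζ * ζ * ζ) := by rw [z3, one_mul, mul_one]
      _ = ζ * ζ * (ζ * a * ζ * a * ζ) * (ζ * ζ) := by noncomm_ring
      _ = _ := by rw [e0]
  have e2 : ζ * a * ζ = a * (ζ * ζ) * a := by
    calc ζ * a * ζ = ζ * a * ζ * (a * (ζ * ζ * ζ) * a) := by rw [z3, mul_one a, ha, mul_one]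
      _ = ζ * a * ζ * a * ζ * (ζ * ζ) * a := by noncomm_ring
      _ = _ := by rw [e0]
  have e3 : ζ * ζ = ζ + 1 := by linear_combination (norm := noncomm_ring) hz - h2 ζ - h2 1
  rw [e3] at e1 e2 ⊢
  exact ⟨by linear_combination (norm := noncomm_ring) - e1 - e2 - ha - h2 (a * ζ) - h2 a - h2 1,
    by linear_combination (norm := noncomm_ring) ha + h2 a + h2 1⟩

theorem pa_rel' (z3 : z ^ 3 = 1) (hz : φ z * φ z + φ z + 1 = 0) (w2 : φ w * φ w = 1)
    (w3 : φ (w * (z * w * z⁻¹) * (z ^ 2 * w * (z ^ 2)⁻¹)) = 1) :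
    φ z * (φ w + 1) = (φ w + 1) * (φ z * φ z) ∧ (φ w + 1) * (φ w + 1) = 0 := by
  have e1 : z⁻¹ = z * z := inv_eq_of_mul_eq_one_right (by rw [← z3, pow_three])
  have e2 : (z ^ 2)⁻¹ = z := inv_eq_of_mul_eq_one_right (by rw [← z3, pow_succ z 2])
  rw [e1, e2, pow_two] at w3
  simp only [map_mul] at w3
  exact pa_rel pa_two hz w2 w3

/-- The images of the alternating words. -/
def paU (n n' : Module.End K V) : ℕ → Submodule K V × Submodule K V
  | 0 => (⊤, ⊤)
  | k + 1 => ((paU n n' k).2.map n, (paU n n' k).1.map n')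

section filt

variable {n n' ζ : Module.End K V}

theorem paU_inv (h : ζ * n = n * (ζ * ζ)) (h' : ζ * n' = n' * (ζ * ζ)) (k : ℕ) :
    (∀ v ∈ (paU n n' k).1, ζ v ∈ (paU n n' k).1) ∧ ∀ v ∈ (paU n n' k).2, ζ v ∈ (paU n n' k).2 := by
  induction k with
  | zero => exact ⟨fun _ _ => trivial, fun _ _ => trivial⟩
  | succ k ih =>
    constructor
    · rintro _ ⟨u, hu, rfl⟩
      exact ⟨_, ih.2 _ (ih.2 u hu), (LinearMap.congr_fun h u).symm⟩
    · rintro _ ⟨u, hu, rfl⟩
      exact ⟨_, ih.1 _ (ih.1 u hu), (LinearMap.congr_fun h' u).symm⟩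

theorem paU_le (k : ℕ) : (paU n n' (k + 1)).1 ≤ (paU n n' k).1 ∧ (paU n n' (k + 1)).2 ≤ (paU n n' k).2 := by
  induction k with
  | zero => exact ⟨le_top, le_top⟩
  | succ k ih => exact ⟨Submodule.map_mono ih.2, Submodule.map_mono ih.1⟩

theorem paU_step (h : n * n = 0) (h' : n' * n' = 0) (k : ℕ) (v : V) (hv : v ∈ (paU n n' k).1 ⊔ (paU n n' k).2) :
    n v ∈ (paU n n' (k + 1)).1 ∧ n' v ∈ (paU n n' (k + 1)).2 := by
  obtain ⟨a, ha, b, hb, rfl⟩ := Submodule.mem_sup.1 hv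
  rw [map_add, map_add]
  refine ⟨add_mem ?_ ⟨b, hb, rfl⟩, add_mem ⟨a, ha, rfl⟩ ?_⟩
  · rcases k with _ | k
    · exact ⟨a, trivial, rfl⟩
    · obtain ⟨u, -, rfl⟩ := ha
      rw [show n (n u) = 0 from LinearMap.congr_fun h u]
      exact zero_mem _
  · rcases k with _ | k
    · exact ⟨b, trivial, rfl⟩
    · obtain ⟨u, -, rfl⟩ := hb
      rw [show n' (n' u) = 0 from LinearMap.congr_fun h' u]
      exact zero_mem _

theorem paU_even (j : ℕ) : ∀ v ∈ (paU n n' (2 * j)).1, ∃ u, v = ((n * n') ^ j) u := by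
  induction j with
  | zero => exact fun v _ => ⟨v, rfl⟩
  | succ j ih =>
    rintro _ ⟨_, ⟨u, hu, rfl⟩, rfl⟩
    obtain ⟨x, rfl⟩ := ih u hu
    exact ⟨x, by rw [pow_succ']; rfl⟩

end filt

theorem Qd.nil [Finite N] (h : Qd φ z w w') (hn : IsNilpotent ((φ w + 1) * (φ w' + 1))) :
    ∀ g ∈ closure (orb z w ∪ orb z w'), ∃ k : ℕ, φ g ^ 2 ^ k = 1 := by
  obtain ⟨r1, s1⟩ := pa_rel' h.z3 h.hz h.w2 h.w3
  obtain ⟨r2, s2⟩ := pa_rel' h.z3 h.hz h.w2' h.w3'
  obtain ⟨m, hm⟩ := hn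
  set B : ℕ → Submodule K V := fun k => (paU (φ w + 1) (φ w' + 1) k).1 ⊔ (paU (φ w + 1) (φ w' + 1) k).2 with hB
  have le : ∀ k, B (k + 1) ≤ B k := fun k => sup_le_sup (paU_le k).1 (paU_le k).2
  have inv : ∀ k i, ∀ v ∈ B k, φ (z ^ i) v ∈ B k := fun k i => by
    induction i with
    | zero => exact fun v hv => by simpa using hv
    | succ i ih =>
      intro v hv
      obtain ⟨a, ha, b, hb, e⟩ := Submodule.mem_sup.1 (ih v hv)
      rw [pow_succ', map_mul, Module.End.mul_apply, ← e, map_add]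
      exact Submodule.add_mem_sup ((paU_inv r1 r2 k).1 a ha) ((paU_inv r1 r2 k).2 b hb)
  have gen : ∀ x : N, (∀ k, ∀ v ∈ B k, (φ x + 1) v ∈ B (k + 1)) → ∀ g ∈ orb z x, ∀ k, ∀ v ∈ B k,
      φ g v - v ∈ B (k + 1) := by
    rintro x hx _ ⟨i, rfl⟩ k v hv
    have e : (z ^ i)⁻¹ = z ^ (2 * i) := inv_eq_of_mul_eq_one_right (by
      rw [← pow_add, show i + 2 * i = 3 * i by ring, pow_mul, h.z3, one_pow])
    have := inv _ i _ (hx k _ (inv k (2 * i) v hv))
    rw [pa_sub, LinearMap.sub_apply, map_sub, ← e, Module.End.one_apply, ← Module.End.mul_apply (φ (z ^ i)) (φ _⁻¹),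
      ← map_mul, mul_inv_cancel, map_one, Module.End.one_apply] at this
    simpa only [map_mul, Module.End.mul_apply] using this
  have mul : ∀ x y : N, (∀ k, ∀ v ∈ B k, φ x v - v ∈ B (k + 1)) → (∀ k, ∀ v ∈ B k, φ y v - v ∈ B (k + 1)) →
      ∀ k, ∀ v ∈ B k, φ (x * y) v - v ∈ B (k + 1) := fun x y hx hy k v hv => by
    have := add_mem (hx k (φ y v) (by simpa using add_mem (le k (hy k v hv)) hv)) (hy k v hv)
    rwa [sub_add_sub_cancel, ← Module.End.mul_apply, ← map_mul] at this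
  have one : ∀ k, ∀ v ∈ B k, φ 1 v - v ∈ B (k + 1) := fun k v _ => by simp
  have key : ∀ g ∈ closure (orb z w ∪ orb z w'), ∀ k, ∀ v ∈ B k, φ g v - v ∈ B (k + 1) := fun g hg => by
    induction hg using closure_induction with
    | mem x hx =>
      rcases hx with hx | hx
      · exact gen w (fun k v hv => Submodule.mem_sup_left (paU_step s1 s2 k v hv).1) x hx
      · exact gen w' (fun k v hv => Submodule.mem_sup_right (paU_step s1 s2 k v hv).2) x hx
    | one => exact one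
    | mul x y _ _ hx hy => exact mul x y hx hy
    | inv x _ hx =>
      obtain ⟨j, e⟩ := mem_powers_iff_mem_zpowers.2 (inv_mem (mem_zpowers x))
      rw [← e]
      clear e
      induction j with
      | zero => simpa only [pow_zero] using one
      | succ j ih => simpa only [pow_succ] using mul _ x ih hx
  intro g hg
  have pw : ∀ j v, ((φ g - 1) ^ j) v ∈ B j := fun j v => by
    induction j with
    | zero => exact Submodule.mem_sup_left trivial
    | succ j ih =>
      rw [pow_succ', Module.End.mul_apply]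
      exact key g hg j _ ih
  have z0 : (φ g - 1) ^ (2 * m + 1) = 0 := LinearMap.ext fun v => by
    obtain ⟨a, ha, _, ⟨b, hb, rfl⟩, e⟩ := Submodule.mem_sup.1 (pw (2 * m + 1) v)
    obtain ⟨x, rfl⟩ := paU_even m a ((paU_le _).1 ha)
    obtain ⟨y, rfl⟩ := paU_even m b hb
    rw [← e, hm]
    simp
  have fr : ∀ k : ℕ, φ g ^ 2 ^ k = (φ g - 1) ^ 2 ^ k + 1 := fun k => by
    induction k with
    | zero => simp
    | succ k ih =>
      rw [pow_succ, pow_mul, pow_mul, ih]
      linear_combination (norm := noncomm_ring) pa_two ((φ g - 1) ^ 2 ^ k)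
  exact ⟨2 * m + 1, by rw [fr, pow_eq_zero_of_le (Nat.lt_two_pow_self).le z0, zero_add]⟩

theorem pa_eig [IsAlgClosed K] [FiniteDimensional K V] {f : Module.End K V} (hn : ¬ IsNilpotent f) :
    ∃ d : K, d ≠ 0 ∧ f.HasEigenvalue d := by
  by_contra hc
  refine hn (Module.End.isNilpotent_iff_of_finite.2 fun v => ?_)
  have : (⨆ μ, f.maxGenEigenspace μ) ≤ f.maxGenEigenspace 0 := iSup_le fun μ => by
    by_cases e : μ = 0
    · rw [e]
    by_contra hh
    refine hc ⟨μ, e, ?_⟩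
    rw [Module.End.maxGenEigenspace_eq_genEigenspace_finrank] at hh
    exact Module.End.hasEigenvalue_of_hasGenEigenvalue (k := Module.finrank K V) fun e' => hh (e' ▸ bot_le)
  simpa using (Module.End.mem_maxGenEigenspace _ _ _).1 (this (f.iSup_maxGenEigenspace_eq_top ▸ Submodule.mem_top))

theorem Qd.rho [IsAlgClosed K] [FiniteDimensional K V] (h : Qd φ z w w')
    (hn : ¬ IsNilpotent ((φ w + 1) * (φ w' + 1))) :
    ∃ (ω d : K) (hω : ω ≠ 0), ω * ω + ω + 1 = 0 ∧ d ≠ 0 ∧ ∃ ρ : closure ({z, w, w'} : Set N) →* PGL(2, K),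
      ∀ g : closure ({z, w, w'} : Set N), ((g : N) = z → ρ g = aff ω 0 hω) ∧
        ((g : N) = w → ρ g = aff 1 1 one_ne_zero) ∧ ((g : N) = w' → ρ g = pm 1 0 d 1 (by simp)) := by
  obtain ⟨r1, s1⟩ := pa_rel' h.z3 h.hz h.w2 h.w3
  obtain ⟨r2, s2⟩ := pa_rel' h.z3 h.hz h.w2' h.w3'
  obtain ⟨d, d0, hd⟩ := pa_eig hn
  have ew : φ w = φ w + 1 + 1 := by rw [add_assoc, pa_two, add_zero]
  have ew' : φ w' = φ w' + 1 + 1 := by rw [add_assoc, pa_two, add_zero]
  generalize φ w + 1 = n at *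
  generalize φ w' + 1 = n' at *
  have z3 : φ z * φ z * φ z = 1 := by rw [← map_mul, ← map_mul, ← pow_three', h.z3, map_one]
  have cm : φ z * (n * n') = n * n' * φ z := by
    calc φ z * (n * n') = n * (φ z * (φ z * n')) := by rw [← mul_assoc, r1]; noncomm_ring
      _ = n * n' * (φ z * (φ z * φ z * φ z)) := by rw [r2, ← mul_assoc (φ z), r2]; noncomm_ring
      _ = _ := by rw [z3, mul_one]
  have mp : ∀ v ∈ (n * n').eigenspace d, φ z v ∈ (n * n').eigenspace d := fun v hv => by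
    rw [Module.End.mem_eigenspace_iff] at hv ⊢
    rw [← Module.End.mul_apply, ← cm, Module.End.mul_apply, hv, map_smul]
  haveI : Nontrivial ((n * n').eigenspace d) := Submodule.nontrivial_iff_ne_bot.2 hd
  obtain ⟨l, hl⟩ := Module.End.exists_eigenvalue ((φ z).restrict mp)
  obtain ⟨⟨v, hv⟩, hv1⟩ := hl.exists_hasEigenvector
  have v0 : v ≠ 0 := fun e => hv1.2 (Subtype.ext e)
  have zv : φ z v = l • v := congrArg Subtype.val hv1.apply_eq_smul
  rw [Module.End.mem_eigenspace_iff, Module.End.mul_apply] at hv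
  have hl2 : l * l + l + 1 = 0 := by
    have e := LinearMap.congr_fun h.hz v
    simp only [LinearMap.add_apply, Module.End.mul_apply, Module.End.one_apply, zv, map_smul, smul_smul,
      LinearMap.zero_apply] at e
    refine (smul_eq_zero.1 (?_ : _ • v = 0)).resolve_right v0
    rw [add_smul, add_smul, one_smul, e]
  have l3 : l * (l * l) = 1 := by linear_combination (l - 1) * hl2
  have l0 : l * l ≠ 0 := fun e => by simp [e] at l3
  obtain ⟨u, hu⟩ : ∃ u, u = d⁻¹ • n' v := ⟨_, rfl⟩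
  have nu : n u = v := by rw [hu, map_smul, hv, inv_smul_smul₀ d0]
  have nv : n v = 0 := by rw [← nu]; exact LinearMap.congr_fun s1 u
  have n'v : n' v = d • u := by rw [hu, smul_inv_smul₀ d0]
  have n'u : n' u = 0 := by rw [hu, map_smul, show n' (n' v) = 0 from LinearMap.congr_fun s2 v, smul_zero]
  have zu : φ z u = (l * l) • u := by
    rw [hu, map_smul, show φ z (n' v) = n' (φ z (φ z v)) from LinearMap.congr_fun r2 v, zv, map_smul, zv, smul_smul,
      map_smul, smul_comm]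
  have ind : ∀ a b a' b' : K, a • v + b • u = a' • v + b' • u → a = a' ∧ b = b' := fun a b a' b' e => by
    have e1 := congrArg n e
    simp only [map_add, map_smul, nv, nu, smul_zero, zero_add] at e1
    obtain rfl := smul_left_injective K v0 e1
    exact ⟨smul_left_injective K v0 (add_right_cancel e), rfl⟩
  let Q : N → Matrix (Fin 2) (Fin 2) K → Prop := fun g M =>
    φ g v = M 0 0 • v + M 1 0 • u ∧ φ g u = M 0 1 • v + M 1 1 • u
  have uq : ∀ g M M', Q g M → Q g M' → M = M' := fun g M M' a b => by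
    obtain ⟨a1, a2⟩ := ind _ _ _ _ (a.1.symm.trans b.1)
    obtain ⟨a3, a4⟩ := ind _ _ _ _ (a.2.symm.trans b.2)
    rw [Matrix.eta_fin_two M, Matrix.eta_fin_two M', a1, a2, a3, a4]
  have q1 : Q 1 1 := by simp [Q]
  have qm : ∀ g g' M M', Q g M → Q g' M' → Q (g * g') (M * M') := fun g g' M M' a b => by
    simp only [Q, map_mul, Module.End.mul_apply, a.1, a.2, b.1, b.2, map_add, map_smul, Matrix.mul_apply,
      Fin.sum_univ_two]
    constructor <;> module
  have qz : Q z !![l, 0; 0, l * l] := by simp [Q, zv, zu]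
  have qw : Q w !![1, 1; 0, 1] := by
    simp only [Q]
    rw [ew]
    simp [nv, nu]
  have qw' : Q w' !![1, 0; d, 1] := by
    simp only [Q]
    rw [ew']
    simp [n'v, n'u, add_comm]
  have qi : ∀ x : N, φ x * φ x = 1 → ∀ M, Q x M → Q x⁻¹ M := fun x hx M a => by
    have : φ x⁻¹ = φ x := by rw [← mul_one (φ x⁻¹), ← hx, ← mul_assoc, ← map_mul, inv_mul_cancel, map_one, one_mul]
    simpa only [Q, this] using a
  have ex : ∀ g ∈ closure ({z, w, w'} : Set N), ∃ M, Q g M := fun g hg => by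
    induction hg using closure_induction'' with
    | mem x hx =>
      rcases hx with rfl | rfl | rfl
      exacts [⟨_, qz⟩, ⟨_, qw⟩, ⟨_, qw'⟩]
    | inv_mem x hx =>
      rcases hx with rfl | rfl | rfl
      · rw [show x⁻¹ = x * x from inv_eq_of_mul_eq_one_right (by rw [← h.z3, pow_three])]
        exact ⟨_, qm _ _ _ _ qz qz⟩
      exacts [⟨_, qi _ h.w2 _ qw⟩, ⟨_, qi _ h.w2' _ qw'⟩]
    | one => exact ⟨_, q1⟩
    | mul x y _ _ hx hy => exact ⟨_, qm _ _ _ _ hx.choose_spec hy.choose_spec⟩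
  choose M hM using ex
  let f : closure ({z, w, w'} : Set N) →* Matrix (Fin 2) (Fin 2) K :=
    { toFun := fun g => M g g.2
      map_one' := uq 1 _ _ (hM _ _) q1
      map_mul' := fun g g' => uq _ _ _ (hM _ _) (qm _ _ _ _ (hM _ g.2) (hM _ g'.2)) }
  have val : ∀ (g : closure ({z, w, w'} : Set N)) (a b c e : K) (he : a * e - b * c ≠ 0), Q g !![a, b; c, e] →
      (Matrix.ProjGenLinGroup.mk.comp f.toHomUnits) g = pm a b c e he := fun g a b c e he q =>
    congrArg Matrix.ProjGenLinGroup.mk (Units.ext (uq g _ _ (hM _ g.2) q))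
  refine ⟨l * l, d, l0, by linear_combination l * l3 + hl2, d0, Matrix.ProjGenLinGroup.mk.comp f.toHomUnits, fun g =>
    ⟨fun e => ?_, fun e => val g 1 1 0 1 _ (by rw [e]; exact qw), fun e => val g 1 0 d 1 _ (by rw [e]; exact qw')⟩⟩
  rw [val g l 0 0 (l * l) (by simp [l3]) (by rw [e]; exact qz), aff, pm_eq_pm_iff]
  exact ⟨l, rfl, by simp, by simp, l3.symm⟩

end CfsgLib.Mas
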