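import Mathlib
import Cfsg.Agent.Lib.Mas.Pa
import Cfsg.Agent.Lib.Mas.Fld
import Cfsg.Agent.Lib.Tech.SylowIn
import Cfsg.Agent.Lib.Tech.Invol
import Cfsg.Agent.Lib.Coprime.Glauberman

/-!
Two four-groups centralized by different elements of `E` generate a 2-group (plans/MAS.md, PC).
-/

set_option autoImplicit false
set_option linter.unusedSectionVars false

namespace CfsgLib.Mas

open Cfsg Subgroup CfsgLib.Dickson
open scoped MatrixGroups

/-- The conjugates of a homomorphism and the intersection of their kernels. -/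
theorem conj_family {N H : Type*} [Group N] [Finite N] [Group H] {L X : Subgroup N}
    (hX : X ≤ normalizer (L : Set N)) (ρ : L →* H) :
    ∃ (σ : X → L →* H) (C : Subgroup N), (∀ (y : X) (g g' : L), (g' : N) = y * g * (y : N)⁻¹ → σ y g = ρ g') ∧
      C ≤ L ∧ (∀ g : L, (g : N) ∈ C ↔ ∀ y, σ y g = 1) ∧ X ≤ normalizer (C : Set N) ∧
        L ≤ normalizer (C : Set N) := by
  have m : ∀ y ∈ X, ∀ g ∈ L, y * g * y⁻¹ ∈ L := fun y hy g hg => (mem_normalizer_iff.1 (hX hy) g).1 hg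
  let σ : X → L →* H := fun y =>
    ρ.comp (((MulAut.conj (y : N)).toMonoidHom.comp L.subtype).codRestrict L fun g => m y y.2 g g.2)
  have hσ : ∀ (y : X) (g g' : L), (g' : N) = y * g * (y : N)⁻¹ → σ y g = ρ g' := fun y g g' e =>
    congrArg ρ (Subtype.ext e.symm)
  have mC : ∀ g : L, (g : N) ∈ (⨅ y, (σ y).ker).map L.subtype ↔ ∀ y, σ y g = 1 := fun g => by
    rw [← L.subtype_apply, mem_map_iff_mem L.subtype_injective, mem_iInf]; rfl
  refine ⟨σ, (⨅ y, (σ y).ker).map L.subtype, hσ, map_subtype_le _, mC, fun a ha => ?_, fun a ha => ?_⟩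
  · refine mem_normalizer_fintype fun c hc => ?_
    have cL : c ∈ L := map_subtype_le _ hc
    refine (mC ⟨_, m a ha c cL⟩).2 fun y => ?_
    have k := m _ (X.mul_mem y.2 ha) c cL
    rw [hσ y _ ⟨_, k⟩ (by simp [mul_assoc]), ← hσ (y * ⟨a, ha⟩) ⟨c, cL⟩ ⟨_, k⟩ rfl]
    exact (mC ⟨c, cL⟩).1 hc _
  · refine mem_normalizer_fintype fun c hc => ?_
    have cL : c ∈ L := map_subtype_le _ hc
    refine (mC (⟨a, ha⟩ * ⟨c, cL⟩ * ⟨a, ha⟩⁻¹)).2 fun y => ?_
    rw [map_mul, map_mul, (mC ⟨c, cL⟩).1 hc y, mul_one, map_inv, mul_inv_cancel]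

/-- A subgroup normalized by a 3-group without fixed elements of order 3 has order prime to 3. -/
theorem cop_of_fix {N : Type*} [Group N] [Finite N] {E C : Subgroup N} (hE : IsPGroup 3 E)
    (hn : E ≤ normalizer (C : Set N)) (h : ∀ c ∈ C, orderOf c = 3 → (∀ e ∈ E, e * c = c * e) → False) :
    (Nat.card C).Coprime 3 := by
  have : Fact (Nat.Prime 3) := ⟨Nat.prime_three⟩
  obtain ⟨S, hS, le⟩ := Tech.exists_isSylowIn_ge hE (le_sup_right : E ≤ C ⊔ E)
  have n : C ⊔ E ≤ normalizer (C : Set N) := sup_le le_normalizer hn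
  have s := hS.inf_of_le_normalizer n
  by_cases e : S ⊓ C = ⊥
  · have := s.not_dvd
    rw [e, inf_eq_right.2 le_sup_left, relIndex_bot_left] at this
    exact ((Nat.Prime.coprime_iff_not_dvd Nat.prime_three).2 this).symm
  · obtain ⟨c, c1, c2, c3⟩ := Tech.exists_mem_center_of_normalized hS.pgroup inf_le_left
      ((le_inf le_normalizer (hS.le.trans n)).trans inf_normalizer_le_normalizer_inf) e
    exact (h c c1.2 c2 fun e he => c3 e (le he)).elim

theorem pair {N : Type*} [Group N] [Finite N] {K : Type} [Field K] [CharP K 2] [IsAlgClosed K] {V : Type}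
    [AddCommGroup V] [Module K V] [FiniteDimensional K V] {φ : N →* Module.End K V} {x z w w' : N}
    (h : Qd φ z w w') (x3 : x ^ 3 = 1) (xz : x * z = z * x) (xw : x * w = w * x) (xw' : x * z * w' = w' * (x * z))
    (h3 : ∀ c : N, c ^ 3 = 1 → c * x = x * c → c * z = z * c → ∃ a b : ℕ, c = x ^ a * z ^ b)
    (hθ : ∀ g : N, g * x = x * g → ¬ 3 ∣ orderOf (w * (g * w * g⁻¹))) :
    ∀ g ∈ closure (orb z w ∪ orb z w'), ∃ k : ℕ, φ g ^ 2 ^ k = 1 := by
  by_cases hn : IsNilpotent ((φ w + 1) * (φ w' + 1))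
  · exact h.nil hn
  exfalso
  have : Fact (Nat.Prime 3) := ⟨Nat.prime_three⟩
  have two : (2 : K) = 0 := CharP.cast_eq_zero K 2
  obtain ⟨ω, d, hω, eω, hd, hρ⟩ := h.rho hn
  set L : Subgroup N := closure ({z, w, w'} : Set N) with hL
  obtain ⟨ρ, hρ⟩ := hρ
  have zL : z ∈ L := subset_closure (by simp)
  have wL : w ∈ L := subset_closure (by simp)
  have wL' : w' ∈ L := subset_closure (by simp)
  have rz : ρ ⟨z, zL⟩ = aff ω 0 hω := (hρ _).1 rfl
  have rw1 : ρ ⟨w, wL⟩ = aff 1 1 one_ne_zero := (hρ _).2.1 rfl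
  have rw2 : ρ ⟨w', wL'⟩ = pm 1 0 d 1 (by simp) := (hρ _).2.2 rfl
  have ω1 : ω ≠ 1 := by rintro rfl; exact one_ne_zero (α := K) (by linear_combination eω - two)
  have o3 : orderOf ω = 3 := orderOf_eq_prime (by linear_combination (ω - 1) * eω) ω1
  have dv : ∀ n : ℕ, ω ^ n = 1 → ∀ a : N, a ^ 3 = 1 → a ^ n = 1 := fun n e a ha => by
    obtain ⟨m, rfl⟩ : 3 ∣ n := o3 ▸ orderOf_dvd_of_pow_eq_one e
    rw [pow_mul, ha, one_pow]
  have cz : ∀ n : ℕ, x ^ n * z = z * x ^ n := fun n => (Commute.pow_left xz n).eq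
  have cw : ∀ n : ℕ, x ^ n * w = w * x ^ n := fun n => (Commute.pow_left xw n).eq
  have cw' : ∀ n : ℕ, x ^ n * w' * (x ^ n)⁻¹ = (z ^ n)⁻¹ * w' * z ^ n := fun n => by
    have e := (Commute.pow_left (show Commute (x * z) w' from xw') n).eq
    rw [xz, Commute.mul_pow xz.symm] at e
    calc _ = (z ^ n)⁻¹ * (z ^ n * x ^ n * w') * (x ^ n)⁻¹ := by group
      _ = _ := by rw [e]; group
  have xL : zpowers x ≤ normalizer (L : Set N) := zpowers_le.2 (mem_normalizer_fintype fun g hg =>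
    (closure_le (L.comap (MulAut.conj x).toMonoidHom)).2 (by
      rintro t (rfl | rfl | rfl)
      · show x * t * x⁻¹ ∈ L
        rwa [xz, mul_inv_cancel_right]
      · show x * t * x⁻¹ ∈ L
        rwa [xw, mul_inv_cancel_right]
      · show x * t * x⁻¹ ∈ L
        have := cw' 1
        rw [pow_one, pow_one] at this
        rw [this]
        exact L.mul_mem (L.mul_mem (L.inv_mem zL) wL') zL) hg)
  obtain ⟨σ, C, hσ, CL, mC, nX, nL⟩ := conj_family xL ρ
  have σ1 : ∀ g, σ 1 g = ρ g := fun g => hσ 1 g g (by simp)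
  have ex : ∀ y : zpowers x, ∃ n : ℕ, (y : N) = x ^ n := fun y => by
    obtain ⟨n, e⟩ := mem_powers_iff_mem_zpowers.2 y.2
    exact ⟨n, e.symm⟩
  choose n hy using ex
  obtain ⟨g, hg⟩ := fam σ (w := ⟨w, wL⟩) (w₁ := ⟨z, zL⟩ * ⟨w, wL⟩ * ⟨z, zL⟩⁻¹) (w' := ⟨w', wL'⟩) hω ω1
    (fun y => d * ω ^ n y) (fun y => mul_ne_zero hd (pow_ne_zero _ hω))
    (fun y => (hσ y _ ⟨w, wL⟩ (by simp [hy, cw])).trans rw1)
    (fun y => by
      rw [map_mul, map_mul, map_inv, hσ y ⟨w, wL⟩ ⟨w, wL⟩ (by simp [hy, cw]),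
        hσ y ⟨z, zL⟩ ⟨z, zL⟩ (by simp [hy, cz]), rz, rw1, mul_inv_eq_iff_eq_mul, aff_mul, aff_mul]
      exact aff_congr (by ring) (by ring))
    (fun y => by
      rw [hσ y _ ((⟨z, zL⟩ ^ n y)⁻¹ * ⟨w', wL'⟩ * ⟨z, zL⟩ ^ n y) (by rw [hy, cw']; rfl), map_mul, map_mul, map_inv,
        map_pow, rz, rw2, aff_zero_pow, mul_assoc, inv_mul_eq_iff_eq_mul, aff, pm_mul, pm_mul]
      exact pm_congr (by ring) (by ring) (by ring) (by ring))
  have pE : IsPGroup 3 (zpowers x ⊔ zpowers z : Subgroup N) :=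
    (pg_zpowers x3).to_sup_of_normal_right' (pg_zpowers h.z3) (zpowers_le.2 (centralizer_le_normalizer _
      (by rw [cent_zpowers]; exact mem_centralizer_singleton_iff.2 xz)))
  have cop := cop_of_fix pE (sup_le nX ((zpowers_le.2 zL).trans nL)) (fun c hc c3 cc => by
    have c3' : c ^ 3 = 1 := c3 ▸ pow_orderOf_eq_one c
    obtain ⟨a, b, e⟩ := h3 c c3' (cc x (mem_sup_left (mem_zpowers x))).symm
      (cc z (mem_sup_right (mem_zpowers z))).symm
    have rc : ρ ⟨c, CL hc⟩ = 1 := (σ1 _).symm.trans ((mC ⟨c, CL hc⟩).1 hc 1)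
    have e1 : (⟨c, CL hc⟩ * ⟨w, wL⟩ * ⟨c, CL hc⟩⁻¹ : L) * ⟨z, zL⟩ ^ b = ⟨z, zL⟩ ^ b * ⟨w, wL⟩ := Subtype.ext (by
      show c * w * c⁻¹ * z ^ b = z ^ b * w
      rw [e, (Commute.pow_pow xz a b).eq, mul_assoc (z ^ b), cw]
      group)
    have e2 := congrArg ρ e1
    simp only [map_mul, map_inv, map_pow, rc, rz, rw1, one_mul, inv_one, mul_one, aff_zero_pow, aff_mul,
      aff_inj] at e2
    rw [dv b (by linear_combination -e2.2) z h.z3, mul_one] at e
    have e3 : ⟨z, zL⟩ ^ a * (⟨c, CL hc⟩ * ⟨w', wL'⟩ * ⟨c, CL hc⟩⁻¹ : L) = ⟨w', wL'⟩ * ⟨z, zL⟩ ^ a := Subtype.ext (by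
      show z ^ a * (c * w' * c⁻¹) = w' * z ^ a
      rw [e, cw']
      group)
    have e4 := congrArg ρ e3
    simp only [map_mul, map_inv, map_pow, rc, rz, rw2, one_mul, inv_one, mul_one, aff_zero_pow] at e4
    rw [aff, pm_mul, pm_mul, pm_eq_pm_iff] at e4
    obtain ⟨u, -, -, f3, f4⟩ := e4
    rw [dv a (mul_left_cancel₀ hd (by linear_combination f3 - d * f4)) x x3] at e
    rw [e, orderOf_one] at c3
    omega)
  obtain ⟨u, hu, hc⟩ := Coprime.exists_mul_mem_centralizer' nX (cop_of (pg_zpowers x3) cop)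
    (.inl (solv3 (pg_zpowers x3))) g (fun a ha => by
      have k := fun b (hb : b ∈ zpowers x) => (mem_normalizer_iff.1 (xL hb) g).1 g.2
      refine (mC (⟨_, k a ha⟩ * g⁻¹)).2 fun y => ?_
      rw [map_mul, map_inv, hg, mul_inv_eq_one, hσ y _ ⟨_, k _ (mul_mem y.2 ha)⟩ (by simp [mul_assoc]),
        ← hσ (y * ⟨a, ha⟩) g _ rfl, hg])
  have rg : ρ (⟨u, CL hu⟩ * g) = pm 1 0 1 1 (by simp) := by
    rw [← σ1, map_mul, (mC ⟨u, CL hu⟩).1 hu, one_mul, hg]
  refine hθ (u * g) (hc x (mem_zpowers x)).symm ?_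
  have k := orderOf_map_dvd ρ (⟨w, wL⟩ * (⟨u, CL hu⟩ * g * ⟨w, wL⟩ * (⟨u, CL hu⟩ * g)⁻¹))
  rw [← orderOf_coe (⟨w, wL⟩ * _ : L), map_mul, map_mul, map_mul, map_inv, rg, rw1, aff, pm_inv, pm_mul, pm_mul,
    pm_mul, orderOf_eq_prime (p := 3)] at k
  · exact k
  · rw [pow_succ, pow_two, pm_mul, pm_mul, pm_eq_one_iff]
    exact ⟨by linear_combination 0 * two, by linear_combination 0 * two, by linear_combination 0 * two⟩
  · rw [Ne, pm_eq_one_iff]
    exact fun e => one_ne_zero (α := K) (by linear_combination -e.2.1)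

end CfsgLib.Mas
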