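import Mathlib
import Cfsg.Agent.Lib.Mas.Defs

/-!
The Frattini quotient of `O₂(N)` as a module over a field of characteristic 2 (plans/MAS.md, REP).
-/

set_option autoImplicit false
set_option linter.unusedSectionVars false

namespace CfsgLib.Mas

open Cfsg Subgroup CfsgLib.ExtraTwo

/-- The action of `N` on an elementary abelian section `I/Φ` by normal subgroups. -/
theorem exists_act_sec {N : Type*} [Group N] [Finite N] (I Φ : Subgroup N) [hI : I.Normal] [hΦ : Φ.Normal]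
    (hsq : ∀ x ∈ I, x * x ∈ Φ) :
    ∃ (n : ℕ) (π : N → (Fin n → ZMod 2)) (ρ : N →* Module.End (ZMod 2) (Fin n → ZMod 2)),
      (∀ x ∈ I, ∀ y ∈ I, π (x * y) = π x + π y) ∧ (∀ v, ∃ x ∈ I, π x = v) ∧ (∀ x ∈ I, π x = 0 ↔ x ∈ Φ) ∧
      (∀ x ∈ I, ∀ y ∈ I, π x = π y ↔ x * y⁻¹ ∈ Φ) ∧ ∀ g, ∀ x ∈ I, ρ g (π x) = π (g * x * g⁻¹) := by
  obtain ⟨n, π, p1, p2, p3⟩ := exists_coord_of_sq_mem I Φ hsq fun x _ y _ hy => hΦ.conj_mem y hy x
  have p0 : π 1 = 0 := (p3 1 (one_mem _)).2 (one_mem _)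
  have pi : ∀ x ∈ I, π x⁻¹ = π x := fun x hx => by
    have := p1 x⁻¹ (inv_mem hx) x hx
    rw [inv_mul_cancel, p0] at this
    exact add_eq_zero_zmod2.1 this.symm
  have pe : ∀ x ∈ I, ∀ y ∈ I, π x = π y ↔ x * y⁻¹ ∈ Φ := fun x hx y hy => by
    rw [← p3 _ (mul_mem hx (inv_mem hy)), p1 _ hx _ (inv_mem hy), pi y hy, add_eq_zero_zmod2]
  have p2' := p2
  choose s hs hs' using p2'
  have key : ∀ g : N, ∀ x ∈ I, π (g * s (π x) * g⁻¹) = π (g * x * g⁻¹) := by
    intro g x hx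
    rw [pe _ (hI.conj_mem _ (hs _) g) _ (hI.conj_mem _ hx g),
      show g * s (π x) * g⁻¹ * (g * x * g⁻¹)⁻¹ = g * (s (π x) * x⁻¹) * g⁻¹ by group]
    exact hΦ.conj_mem _ ((pe _ (hs _) _ hx).1 (hs' _)) g
  let f : N → (Fin n → ZMod 2) →ₗ[ZMod 2] (Fin n → ZMod 2) := fun g =>
    linOfAdd (fun v => π (g * s v * g⁻¹)) (fun a b => by
      rw [← p1 _ (hI.conj_mem _ (hs a) g) _ (hI.conj_mem _ (hs b) g),
        show g * s a * g⁻¹ * (g * s b * g⁻¹) = g * (s a * s b) * g⁻¹ by group,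
        ← key g _ (I.mul_mem (hs a) (hs b)), p1 _ (hs a) _ (hs b), hs', hs'])
  have hf : ∀ g, ∀ x ∈ I, f g (π x) = π (g * x * g⁻¹) := fun g x hx => key g x hx
  refine ⟨n, π, ⟨⟨f, LinearMap.ext fun v => ?_⟩, fun g g' => LinearMap.ext fun v => ?_⟩, p1, p2, p3, pe, hf⟩
  · rw [← hs' v, hf _ _ (hs v)]; simp
  · show f (g * g') v = f g (f g' v)
    rw [← hs' v, hf _ _ (hs v), hf _ _ (hs v), hf _ _ (hI.conj_mem _ (hs v) g')]
    congr 1; group

/-- The Frattini quotient of `O₂(N)` over the field with two elements. -/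
theorem rep2 {N : Type*} [Group N] [Finite N] (hN : centralizer (pCore 2 N : Set N) ≤ pCore 2 N) :
    ∃ (n : ℕ) (ρ : N →* Module.End (ZMod 2) (Fin n → ZMod 2)), (∀ g, ρ g = 1 ↔ g ∈ pCore 2 N) ∧
      ∀ z : N, z ^ 3 = 1 → (∀ t ∈ pCore 2 N, z * t = t * z → t = 1) → ρ z * ρ z + ρ z + 1 = 0 := by
  haveI : Fact (Nat.Prime 2) := ⟨Nat.prime_two⟩
  have hI : IsPGroup 2 (pCore 2 N) := Core.isPGroup_pCore 2 N
  haveI := Core.pCore_characteristic 2 N
  generalize hd : pCore 2 N = I at *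
  have hF : IsPGroup 2 ((frattini I).map I.subtype) := (hI.to_subgroup _).map _
  obtain ⟨n, π, ρ, p1, p2, p3, pe, hρ⟩ := exists_act_sec I ((frattini I).map I.subtype) fun x hx =>
    ⟨⟨x, hx⟩ ^ 2, PGroup.pow_mem_frattini hI _, by simp [sq]⟩
  have one : ∀ g, ρ g = 1 ↔ ∀ x ∈ I, g * x * g⁻¹ * x⁻¹ ∈ (frattini I).map I.subtype := fun g => by
    refine ⟨fun e x hx => ?_, fun h => LinearMap.ext fun v => ?_⟩
    · rw [← pe _ (Normal.conj_mem inferInstance _ hx g) _ hx, ← hρ g x hx, e]; rfl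
    · obtain ⟨x, hx, rfl⟩ := p2 v
      rw [hρ g x hx]
      exact (pe _ (Normal.conj_mem inferInstance _ hx g) _ hx).2 (h x hx)
  refine ⟨n, ρ, fun g => ⟨fun e => ?_, fun hg => (one g).2 fun x hx => ?_⟩, fun z z3 hz => ?_⟩
  · have hk : IsPGroup 2 ρ.toHomUnits.ker := by
      refine PLocal.Constr.isPGroup_of_forall_coprime fun a ha => ?_
      have e : ρ a = 1 := congrArg Units.val (MonoidHom.mem_ker.1 a.2)
      have ca : (Nat.card (zpowers (a : N))).Coprime 2 := by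
        rw [Nat.card_zpowers, orderOf_coe]; exact ha
      have m : (a : N) ∈ I := by
        refine hN (Coprime.le_centralizer_of_commutator_le_frattini (A := zpowers (a : N)) ?_ ?_ (mem_zpowers _))
        · obtain ⟨k, hk⟩ := (hI.to_subgroup (frattini I)).exists_card_eq
          rw [hk]; exact ca.pow_right _
        · rw [commutator_comm, commutator_le]
          intro b hb x hx
          have : b ∈ ρ.toHomUnits.ker := zpowers_le.2 a.2 hb
          exact (one b).1 (congrArg Units.val (MonoidHom.mem_ker.1 this)) x hx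
      obtain ⟨k, hk⟩ := hI ⟨a, m⟩
      have d : orderOf a ∣ 2 ^ k := by
        rw [← orderOf_coe]; exact orderOf_dvd_of_pow_eq_one (congrArg Subtype.val hk)
      exact orderOf_eq_one_iff.1 (Nat.Coprime.eq_one_of_dvd (ha.pow_right k) d)
    exact hd ▸ Core.le_pCore hk (MonoidHom.mem_ker.2 (Units.ext e))
  · exact ⟨_, PGroup.commutator_le_frattini hI
      (commutator_mem_commutator (mem_top (⟨g, hg⟩ : I)) (mem_top (⟨x, hx⟩ : I))), rfl⟩
  · refine LinearMap.ext fun v => ?_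
    obtain ⟨x, hx, rfl⟩ := p2 v
    have z3' : ρ z * ρ z * ρ z = 1 := by rw [← map_mul, ← map_mul, ← map_one ρ, ← z3]; simp [pow_succ]
    have h1 := Normal.conj_mem inferInstance _ hx z
    have h2 := Normal.conj_mem inferInstance _ h1 z
    have hm := mul_mem (mul_mem h2 h1) hx
    have em : π (z * (z * x * z⁻¹) * z⁻¹ * (z * x * z⁻¹) * x) = (ρ z * ρ z + ρ z + 1) (π x) := by
      rw [p1 _ (mul_mem h2 h1) _ hx, p1 _ h2 _ h1, ← hρ _ _ h1, ← hρ _ _ hx]; rfl
    generalize z * (z * x * z⁻¹) * z⁻¹ * (z * x * z⁻¹) * x = m at hm em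
    have f1 : ρ z (π m) = π m := by
      rw [em, ← Module.End.mul_apply, mul_add, mul_add, ← mul_assoc, z3', mul_one]
      congr 1; abel
    have fa : ∀ a ∈ zpowers z, ρ a (π m) = π m := fun a ha => by
      obtain ⟨k, rfl⟩ := (mem_powers_iff_mem_zpowers.2 ha)
      induction k with
      | zero => simp
      | succ k ih =>
        show ρ (z ^ (k + 1)) (π m) = π m
        rw [pow_succ, map_mul, Module.End.mul_apply, f1]; exact ih (pow_mem (mem_zpowers z) k)
    obtain ⟨u, hu, c⟩ := Coprime.exists_mul_mem_centralizer' (U := (frattini I).map I.subtype) (A := zpowers z)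
      (le_normalizer_of_normal) (cop_of (pg_zpowers z3) (cop_two hF)) (.inl (Coprime.isSolvable_zpowers z)) m
      fun a ha => (pe _ (Normal.conj_mem inferInstance _ hm a) _ hm).1 (by rw [← hρ a m hm, fa a ha])
    have e := hz _ (mul_mem (map_subtype_le _ hu) hm) (c z (mem_zpowers z))
    rw [← em, LinearMap.zero_apply, p3 m hm, ← inv_mem_iff, ← eq_inv_of_mul_eq_one_left e]
    exact hu

theorem rep {N : Type*} [Group N] [Finite N] (hN : centralizer (pCore 2 N : Set N) ≤ pCore 2 N)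
    (K : Type) [Field K] [CharP K 2] :
    ∃ (n : ℕ) (φ : N →* Module.End K (Fin n → K)), (∀ g, φ g = 1 ↔ g ∈ pCore 2 N) ∧
      ∀ z : N, z ^ 3 = 1 → (∀ t ∈ pCore 2 N, z * t = t * z → t = 1) → φ z * φ z + φ z + 1 = 0 := by
  haveI : Fact (Nat.Prime 2) := ⟨Nat.prime_two⟩
  obtain ⟨n, ρ, h1, h2⟩ := rep2 hN
  let β : Module.End (ZMod 2) (Fin n → ZMod 2) →+* Module.End K (Fin n → K) :=
    (Matrix.toLinAlgEquiv' : Matrix (Fin n) (Fin n) K ≃ₐ[K] _).toRingEquiv.toRingHom.comp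
      ((ZMod.castHom (dvd_refl 2) K).mapMatrix.comp
        (LinearMap.toMatrixAlgEquiv' : _ ≃ₐ[ZMod 2] Matrix (Fin n) (Fin n) (ZMod 2)).toRingEquiv.toRingHom)
  have hβ : Function.Injective β := fun a b e =>
    LinearMap.toMatrixAlgEquiv'.injective
      (Matrix.map_injective (ZMod.castHom (dvd_refl 2) K).injective (Matrix.toLinAlgEquiv'.injective e))
  refine ⟨n, β.toMonoidHom.comp ρ, fun g => ?_, fun z z3 hz => ?_⟩
  · rw [← h1]
    exact map_eq_one_iff β hβ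
  · have := congrArg β (h2 z z3 hz)
    simpa using this

end CfsgLib.Mas
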