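import Mathlib
import Cfsg.Agent.Lib.Mas.L1b
import Cfsg.Agent.Lib.Mas.Rep
import Cfsg.Agent.Lib.Mas.Pc
import Cfsg.Agent.Lib.LAE.Cores

/-!
The pair lemma inside `N(I)` (plans/MAS.md, PG).
-/

set_option autoImplicit false
set_option linter.unusedSectionVars false

namespace CfsgLib.Mas

open Cfsg Subgroup

variable {G : Type*} [Group G] [Finite G]

theorem mem_norm_closure {S : Set G} {g : G} (h : ∀ s ∈ S, g * s * g⁻¹ ∈ closure S) :
    g ∈ normalizer ((closure S : Subgroup G) : Set G) :=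
  mem_normalizer_fintype fun n hn => by
    have : closure S ≤ (closure S).comap (MulAut.conj g).toMonoidHom := (closure_le _).2 h
    exact this hn

theorem Bd.zp_eq {E : Subgroup G} {z y : G} (h : Bd E z) (hy : y ∈ zpowers z) (h1 : y ≠ 1) :
    zpowers y = zpowers z := by
  haveI : Fact (Nat.Prime 3) := ⟨Nat.prime_three⟩
  refine eq_of_le_of_card_ge (zpowers_le.2 hy) ?_
  rw [Nat.card_zpowers, Nat.card_zpowers, h.z3,
    orderOf_eq_prime (h.el.2 y (zpowers_le.2 h.zE hy)) h1]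

theorem Bd.of_mem {E : Subgroup G} {z y : G} (h : Bd E z) (hy : y ∈ zpowers z) (h1 : y ≠ 1) :
    Bd E y := by
  have e := h.zp_eq hy h1
  refine ⟨h.loc, h.el, h.card, zpowers_le.2 h.zE hy, h1, ?_, e ▸ h.no27⟩
  have := h.gz
  change Odd (Nat.card (O3 (centralizer {z}))) at this
  change Odd (Nat.card (O3 (centralizer {y})))
  rwa [← cent_zpowers, e, cent_zpowers]

theorem Bd.comm {E : Subgroup G} {z a b : G} (h : Bd E z) (ha : a ∈ E) (hb : b ∈ E) :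
    a * b = b * a := congrArg Subtype.val (h.el.1.is_comm.comm ⟨a, ha⟩ ⟨b, hb⟩)

theorem Bd.le_of {E K : Subgroup G} {z e : G} (h : Bd E z) (he : e ∈ E) (he' : e ∉ zpowers z)
    (h1 : e ∈ K) (h2 : z ∈ K) : E ≤ K := fun c hc => by
  obtain ⟨a, b, rfl⟩ := h.gen he he' hc
  exact mul_mem (pow_mem h1 a) (pow_mem h2 b)

theorem Bd.exists_w {E W N : Subgroup G} {z : G} (h : Bd E z) (hE : E ≤ N) (iW : Inv E W)
    (k : ¬ W.subgroupOf N ≤ pCore 2 N) : ∃ w : N, w.1 ∈ W ∧ w ∉ pCore 2 N ∧ w * w ∈ pCore 2 N ∧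
      ∀ y : N, y.1 = z → w * (y * w * y⁻¹) * (y ^ 2 * w * (y ^ 2)⁻¹) ∈ pCore 2 N := by
  let y : N := ⟨z, hE h.zE⟩
  let f := QuotientGroup.mk' (pCore 2 N)
  have y3 : y ^ 3 = 1 := Subtype.ext (h.el.2 z h.zE)
  have hW : IsPGroup 2 (W.subgroupOf N) := iW.two.comap_subtype
  have hy : y ∈ normalizer (W.subgroupOf N : Set N) := mem_normalizer_iff.2 fun n =>
    mem_normalizer_iff.1 (iW.norm h.zE) n
  obtain ⟨_, ⟨w, hw, rfl⟩, h1, h2, h3⟩ := four (y := f y) (by rw [← map_pow, y3, map_one])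
    (hW.map f) (fun e => k (by simpa [f] using (Subgroup.map_eq_bot_iff _).1 e))
    (le_normalizer_map f (mem_map_of_mem f hy)) fun t ht c => by
      have := (Coprime.map_inf_centralizer f (zpowers_le.2 hy) (cop_of (pg_zpowers y3)
        (cop_two (hW.to_le inf_le_left))) (.inl (Coprime.isSolvable_zpowers y))).ge
        (show t ∈ _ ⊓ _ from ⟨ht, by
          rw [MonoidHom.map_zpowers, cent_zpowers]; exact mem_centralizer_singleton_iff.2 c.symm⟩)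
      obtain ⟨u, ⟨hu, hu'⟩, rfl⟩ := this
      rw [show u = 1 from Subtype.ext (h.b4 iW hu (congrArg Subtype.val (hu' y (mem_zpowers y)))),
        map_one]
  refine ⟨w, hw, fun e => h1 ((QuotientGroup.eq_one_iff _).2 e), (QuotientGroup.eq_one_iff _).1 h2,
    fun y' e => ?_⟩
  rw [show y' = y from Subtype.ext e]
  exact (QuotientGroup.eq_one_iff _).1 h3

theorem Bd.pg' {E I W₁ W₂ : Subgroup G} {z e : G} (h : Bd E z) (hI : Inv E I) (h1 : I ≠ ⊥)
    (hO : pCoreOf 2 (normalizer (I : Set G)) = I) (m1 : e ∈ E) (n1 : e ∉ zpowers z)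
    (i1 : Inv E W₁) (i2 : Inv E W₂)
    (l1 : W₁ ≤ normalizer (I : Set G)) (l2 : W₂ ≤ normalizer (I : Set G))
    (c1 : W₁ ≤ centralizer ({e} : Set G)) (c2 : W₂ ≤ centralizer ({e * z} : Set G)) (k1 : ¬ W₁ ≤ I)
    (k2 : ¬ W₂ ≤ I) : ∃ M : Subgroup G, Inv E M ∧ I ≤ M ∧ ¬ M ⊓ W₁ ≤ I ∧ ¬ M ⊓ W₂ ≤ I := by
  set N := normalizer (I : Set G) with hN
  have hm : ∀ g : N, g ∈ pCore 2 N ↔ g.1 ∈ I := fun g => by rw [LAE.mem_pCore_iff, hO]
  obtain ⟨n, φ, hφ, hz⟩ := rep (h.loc.two I hI.two h1) (AlgebraicClosure (ZMod 2))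
  obtain ⟨w, w1, w2, w3, w4⟩ := h.exists_w hI.norm i1 fun c => k1 fun a ha =>
    (hm ⟨a, l1 ha⟩).1 (c ha)
  obtain ⟨v, v1, v2, v3, v4⟩ := h.exists_w hI.norm i2 fun c => k2 fun a ha =>
    (hm ⟨a, l2 ha⟩).1 (c ha)
  let y : N := ⟨z, hI.norm h.zE⟩
  let x : N := ⟨e, hI.norm m1⟩
  have y3 : y ^ 3 = 1 := Subtype.ext (h.el.2 z h.zE)
  have xy : x * y = y * x := Subtype.ext (h.comm m1 h.zE)
  have xw : x * w = w * x := Subtype.ext (mem_centralizer_singleton_iff.1 (c1 w1)).symm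
  have xv : x * y * v = v * (x * y) := Subtype.ext (mem_centralizer_singleton_iff.1 (c2 v1)).symm
  have key := pair (φ := φ) (x := x) (z := y) (w := w) (w' := v)
    ⟨y3, hz y y3 fun t ht c => Subtype.ext (h.b4 hI ((hm t).1 ht) (congrArg Subtype.val c)),
      by rw [← map_mul, hφ]; exact w3, (hφ _).2 (w4 y rfl), by rw [← map_mul, hφ]; exact v3,
      (hφ _).2 (v4 y rfl)⟩ (Subtype.ext (h.el.2 e m1)) xy xw xv
    (fun c c3 cx cy => by
      have : E ≤ centralizer {c.1} := h.le_of m1 n1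
        (mem_centralizer_singleton_iff.2 (congrArg Subtype.val cx).symm)
        (mem_centralizer_singleton_iff.2 (congrArg Subtype.val cy).symm)
      obtain ⟨a, b, hab⟩ := h.gen m1 n1 (h.b1 (congrArg Subtype.val c3) fun u hu =>
        mem_centralizer_singleton_iff.1 (this hu))
      exact ⟨a, b, Subtype.ext hab⟩)
    fun g gx d => by
      have t1 := h.b3 i1 m1 n1 c1 w1
      have t2 := (mem_normalizer_iff.1 (le_norm_th e
        (mem_centralizer_singleton_iff.2 (congrArg Subtype.val gx))) _).1 t1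
      have := (d.trans (orderOf_coe _).symm.dvd).trans (orderOf_dvd_natCard _ (mul_mem t1 t2))
      exact absurd ((cop_th e).symm.eq_one_of_dvd this) (by norm_num)
  set L := closure (orb y w ∪ orb y v) with hL
  have hL2 : IsPGroup 2 L := fun g => by
    obtain ⟨k, hk⟩ := key g g.2
    rw [← map_pow, hφ] at hk
    obtain ⟨j, hj⟩ := LAE.isPGroup_pCore ⟨_, hk⟩
    exact ⟨k + j, Subtype.ext (by
      have := congrArg Subtype.val hj
      rw [pow_add, pow_mul]; exact this)⟩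
  have m : ∀ {u} (i : ℕ), u = w ∨ u = v → y ^ i * u * (y ^ i)⁻¹ ∈ L := fun i hu =>
    Subgroup.subset_closure (by rcases hu with rfl | rfl; exacts [.inl ⟨i, rfl⟩, .inr ⟨i, rfl⟩])
  have ny : y ∈ normalizer (L : Set N) := mem_norm_closure (by
    rintro _ (⟨i, rfl⟩ | ⟨i, rfl⟩)
    · convert m (i + 1) (.inl rfl) using 1; group
    · convert m (i + 1) (.inr rfl) using 1; group)
  have cxy : ∀ i : ℕ, x * y ^ i = y ^ i * x := fun i => (show Commute x y from xy).pow_right i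
  have nx : x ∈ normalizer (L : Set N) := mem_norm_closure (by
    rintro _ (⟨i, rfl⟩ | ⟨i, rfl⟩)
    · convert m i (.inl rfl) using 1
      calc _ = x * y ^ i * w * (x * y ^ i)⁻¹ := by group
        _ = y ^ i * (x * w) * x⁻¹ * (y ^ i)⁻¹ := by rw [cxy]; group
        _ = _ := by rw [xw]; group
    · convert m (i + 2) (.inr rfl) using 1
      calc _ = x * y ^ (i + 3) * v * (x * y ^ (i + 3))⁻¹ := by rw [pow_add, y3]; group
        _ = y ^ (i + 2) * (x * y * v) * (x * y)⁻¹ * (y ^ (i + 2))⁻¹ := by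
          rw [show x * y ^ (i + 3) = y ^ (i + 2) * (x * y) by rw [cxy, xy]; group]; group
        _ = _ := by rw [xv]; group)
  have nm : ∀ g : N, g ∈ normalizer (L : Set N) →
      g.1 ∈ normalizer (((pCore 2 N ⊔ L).map N.subtype : Subgroup G) : Set G) := fun g hg =>
    le_normalizer_map N.subtype (mem_map_of_mem _ (normalizer_inf_normalizer_le_normalizer_sup _ _
      ⟨by simp [normalizer_eq_top], hg⟩))
  refine ⟨(pCore 2 N ⊔ L).map N.subtype, ⟨(LAE.isPGroup_pCore.to_sup_of_normal_left hL2).map _,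
    h.le_of m1 n1 (nm x nx) (nm y ny)⟩, fun a ha => ⟨⟨a, le_normalizer ha⟩,
      mem_sup_left ((hm _).2 ha), rfl⟩, fun c => w2 ((hm _).2 (c ⟨⟨w, mem_sup_right ?_, rfl⟩, w1⟩)),
    fun c => v2 ((hm _).2 (c ⟨⟨v, mem_sup_right ?_, rfl⟩, v1⟩))⟩
  · simpa using m 0 (.inl rfl)
  · simpa using m 0 (.inr rfl)

/-- an element of `E` outside `⟨z⟩` and `⟨e⟩` has a power `e y` with `1 ≠ y ∈ ⟨z⟩` -/
theorem Bd.exists_pow {E : Subgroup G} {z e c : G} (h : Bd E z) (m1 : e ∈ E) (n1 : e ∉ zpowers z)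
    (m2 : c ∈ E) (n2 : c ∉ zpowers z) : ∃ a j : ℕ, j < 3 ∧ c ^ a = e * z ^ j ∧ (e * z ^ j) ^ a = c := by
  obtain ⟨a, b, rfl⟩ := h.gen m1 n1 m2
  have e3 := h.el.2 e m1
  have z3 := h.el.2 z h.zE
  have cm : Commute e z := h.comm m1 h.zE
  have ha : a * a % 3 = 1 := by
    have : a % 3 ≠ 0 := fun c => n2 (by
      rw [pow_eq_pow_mod a e3, c, pow_zero, one_mul]; exact pow_mem (mem_zpowers z) b)
    rw [Nat.mul_mod]
    rcases (by omega : a % 3 = 1 ∨ a % 3 = 2) with h | h <;> rw [h]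
  refine ⟨a, b * a % 3, Nat.mod_lt _ (by norm_num), ?_, ?_⟩
  · rw [(cm.pow_pow a b).mul_pow, ← pow_mul, ← pow_mul, pow_eq_pow_mod _ e3, ha, pow_one,
      ← pow_eq_pow_mod _ z3]
  · rw [← pow_eq_pow_mod _ z3, (cm.pow_right _).mul_pow, ← pow_mul, mul_assoc b, pow_mul,
      pow_eq_pow_mod (a * a) (show (z ^ b) ^ 3 = 1 by rw [← pow_mul, mul_comm, pow_mul, z3, one_pow]),
      ha, pow_one]

theorem Bd.pg {E I W₁ W₂ : Subgroup G} {z e₁ e₂ : G} (h : Bd E z) (hI : Inv E I) (h1 : I ≠ ⊥)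
    (hO : pCoreOf 2 (normalizer (I : Set G)) = I) (m1 : e₁ ∈ E) (n1 : e₁ ∉ zpowers z) (m2 : e₂ ∈ E)
    (n2 : e₂ ∉ zpowers z) (ne : e₂ ∉ zpowers e₁) (i1 : Inv E W₁) (i2 : Inv E W₂)
    (l1 : W₁ ≤ normalizer (I : Set G)) (l2 : W₂ ≤ normalizer (I : Set G))
    (c1 : W₁ ≤ centralizer ({e₁} : Set G)) (c2 : W₂ ≤ centralizer ({e₂} : Set G)) (k1 : ¬ W₁ ≤ I) (k2 : ¬ W₂ ≤ I) :
    ∃ M : Subgroup G, Inv E M ∧ I ≤ M ∧ ¬ M ⊓ W₁ ≤ I ∧ ¬ M ⊓ W₂ ≤ I := by
  obtain ⟨a, j, -, e, e'⟩ := h.exists_pow m1 n1 m2 n2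
  have hy : z ^ j ∈ zpowers z := pow_mem (mem_zpowers z) j
  have hy1 : z ^ j ≠ 1 := fun c => ne (by
    rw [← e', c, mul_one]; exact pow_mem (mem_zpowers e₁) a)
  refine (h.of_mem hy hy1).pg' hI h1 hO m1 (h.zp_eq hy hy1 ▸ n1) i1 i2 l1 l2 c1
    (fun w hw => mem_centralizer_singleton_iff.2 ?_) k1 k2
  rw [← e]
  exact (show Commute w e₂ from mem_centralizer_singleton_iff.1 (c2 hw)).pow_right a

end CfsgLib.Mas
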