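import Mathlib
import Cfsg.Agent.Lib.Mas.Pg
import Cfsg.Agent.Lib.PLocal.Rank2

/-!
Transitivity on the maximal invariant 2-subgroups (plans/MAS.md, TR).
-/

set_option autoImplicit false
set_option linter.unusedSectionVars false

namespace CfsgLib.Mas

open Cfsg Subgroup

variable {G : Type*} [Group G] [Finite G]

/-- the conjugate subgroup -/
abbrev cj (k : G) (T : Subgroup G) : Subgroup G := T.map (MulAut.conj k).toMonoidHom

theorem cj_cj (k l : G) (T : Subgroup G) : cj k (cj l T) = cj (k * l) T := by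
  rw [cj, cj, map_map]; congr 1; ext; simp [mul_assoc]

theorem cj_one (T : Subgroup G) : cj 1 T = T := by
  rw [cj, map_one]; exact map_id T

theorem cj_eq {k : G} {T : Subgroup G} (h : k ∈ normalizer (T : Set G)) : cj k T = T :=
  Subgroup.mem_normalizer_iff_map_conj_eq.1 h

theorem Inv.conjN {E T : Subgroup G} (h : Inv E T) {k : G} (hk : k ∈ normalizer (E : Set G)) :
    Inv E (cj k T) :=
  ⟨h.two.map _, (cj_eq hk).ge.trans ((map_mono h.norm).trans (le_normalizer_map _))⟩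

theorem MaxInv.conjN {E T : Subgroup G} (h : MaxInv E T) {k : G}
    (hk : k ∈ normalizer (E : Set G)) : MaxInv E (cj k T) :=
  ⟨h.toInv.conjN hk, fun T' h1 h2 => by
    rw [← h.max _ (h1.conjN (inv_mem hk)) (by
      simpa only [cj_cj, inv_mul_cancel, cj_one] using
        map_mono (f := (MulAut.conj k⁻¹).toMonoidHom) h2), cj_cj, mul_inv_cancel, cj_one]⟩

theorem Inv.inf {E T K : Subgroup G} (h : Inv E T) (hK : E ≤ normalizer (K : Set G)) :
    Inv E (T ⊓ K) :=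
  ⟨h.two.to_le inf_le_left, (le_inf h.norm hK).trans inf_normalizer_le_normalizer_inf⟩

theorem Inv.sup {E T K : Subgroup G} (h : Inv E T) (hK : Inv E K) (n : K ≤ normalizer (T : Set G)) :
    Inv E (T ⊔ K) :=
  ⟨h.two.to_sup_of_normal_left' hK.two n,
    (le_inf h.norm hK.norm).trans (normalizer_inf_normalizer_le_normalizer_sup _ _)⟩

/-- conjugacy under `O_{3'}(C(E))` -/
def Rl (E T₁ T₂ : Subgroup G) : Prop := ∃ k ∈ O3 (centralizer (E : Set G)), T₂ = cj k T₁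

theorem Rl.symm {E T₁ T₂ : Subgroup G} (h : Rl E T₁ T₂) : Rl E T₂ T₁ := by
  obtain ⟨k, hk, rfl⟩ := h
  exact ⟨k⁻¹, inv_mem hk, by rw [cj_cj, inv_mul_cancel, cj_one]⟩

theorem Rl.trans {E T₁ T₂ T₃ : Subgroup G} (h : Rl E T₁ T₂) (h' : Rl E T₂ T₃) : Rl E T₁ T₃ := by
  obtain ⟨k, hk, rfl⟩ := h
  obtain ⟨l, hl, rfl⟩ := h'
  exact ⟨l * k, mul_mem hl hk, cj_cj _ _ _⟩

theorem Rl.of_le {E T₁ T₂ : Subgroup G} (h1 : MaxInv E T₁) (h2 : Inv E T₂) (h : T₁ ≤ T₂) :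
    Rl E T₁ T₂ := ⟨1, one_mem _, by rw [cj_one, h1.max _ h2 h]⟩

namespace Bd

variable {E : Subgroup G} {z : G} (h : Bd E z)
include h

theorem pg3 : IsPGroup 3 E := haveI : Fact (Nat.Prime 3) := ⟨Nat.prime_three⟩; KM.el_pgroup h.el

theorem ncyc : ¬ IsCyclic E :=
  haveI : Fact (Nat.Prime 3) := ⟨Nat.prime_three⟩
  PLocal.Rank2.not_isCyclic_of_elemAb h.el (by rw [h.card]; norm_num)

theorem le_cent {e : G} (he : e ∈ E) : E ≤ centralizer ({e} : Set G) := fun _ ha =>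
  mem_centralizer_singleton_iff.2 (h.comm ha he)

theorem conj {e : G} (he : e ∈ E) {M W₁ W₂ : Subgroup G} (hM : M ≤ th e)
    (hn : E ≤ normalizer (M : Set G)) (i1 : Inv E W₁) (i2 : Inv E W₂) (l1 : W₁ ≤ M) (l2 : W₂ ≤ M) :
    ∃ k ∈ M, k ∈ O3 (centralizer (E : Set G)) ∧ ∃ S ≤ M, Inv E S ∧ cj k W₁ ≤ S ∧ W₂ ≤ S := by
  have hc := cop_of h.pg3 ((cop_th e).coprime_dvd_left (card_dvd_of_le hM))
  obtain ⟨P, a1, a2, a3, a4, a5⟩ :=
    Coprime.exists_invariant_sylow_ge' hn hc (.inl (solv3 h.pg3)) W₁ l1 i1.two i1.norm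
  obtain ⟨Q, b1, b2, b3, b4, b5⟩ :=
    Coprime.exists_invariant_sylow_ge' hn hc (.inl (solv3 h.pg3)) W₂ l2 i2.two i2.norm
  obtain ⟨k, ⟨k1, k2⟩, rfl⟩ := Coprime.exists_centralizer_smul_sylow_eq' hn hc (.inl (solv3 h.pg3))
    a2 a3 a4 a5 b2 b3 b4 b5
  refine ⟨k, k1, le_O3 (Y := th e ⊓ centralizer (E : Set G)) inf_le_right ?_
    ((cop_th e).coprime_dvd_left (card_dvd_of_le inf_le_left)) ⟨hM k1, k2⟩, _, b2, ⟨b3, b5⟩,
    map_mono a1, b1⟩
  exact (le_inf ((centralizer_le (Set.singleton_subset_iff.2 he)).trans (le_norm_th e))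
    le_normalizer).trans inf_normalizer_le_normalizer_inf

theorem exists_e {T I : Subgroup G} (hT : Inv E T) (hI : ¬ T ≤ I) :
    ∃ e ∈ E, e ∉ zpowers z ∧ ¬ T ⊓ centralizer ({e} : Set G) ≤ I := by
  have := h.el.1
  by_contra! c
  refine hI (Coprime.le_of_forall_centralizer_le h.ncyc hT.norm (cop_of h.pg3 (cop_two hT.two))
    fun a ha a1 => ?_)
  by_cases m : a ∈ zpowers z
  · intro t ht
    rw [(h.of_mem m a1).b4 hT ht.1 (mem_centralizer_singleton_iff.1 ht.2).symm]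
    exact one_mem _
  · exact c a ha m

theorem meet (I : Subgroup G) : I ≠ ⊥ → ∀ T₁ T₂, MaxInv E T₁ → MaxInv E T₂ → I ≤ T₁ → I ≤ T₂ →
    Rl E T₁ T₂ := by
  induction I using WellFoundedGT.induction with
  | ind I ih =>
  intro h0 T₁ T₂ h1 h2 l1 l2
  have ih' : ∀ J, ¬ J ≤ I → ∀ T₁ T₂, MaxInv E T₁ → MaxInv E T₂ → I ⊔ J ≤ T₁ → I ⊔ J ≤ T₂ →
      Rl E T₁ T₂ := fun J hJ => ih (I ⊔ J) (left_lt_sup.2 hJ) fun e => h0 (eq_bot_mono le_sup_left e)
  by_cases hI : T₁ ⊓ T₂ ≤ I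
  swap
  · exact ih' _ hI _ _ h1 h2 (sup_le l1 inf_le_left) (sup_le l2 inf_le_right)
  obtain rfl : I = T₁ ⊓ T₂ := le_antisymm (le_inf l1 l2) hI
  by_cases c1 : T₁ ≤ T₂
  · exact Rl.of_le h1 h2.toInv c1
  by_cases c2 : T₂ ≤ T₁
  · exact (Rl.of_le h2 h1.toInv c2).symm
  set I := T₁ ⊓ T₂ with hIe
  have iI : Inv E I := h1.toInv.inf h2.norm
  set N := normalizer (I : Set G)
  have nN : E ≤ normalizer (N : Set G) := iI.norm.trans le_normalizer
  have g1 : ¬ T₁ ⊓ N ≤ I := (Coprime.lt_inf_normalizer_of_isNilpotent h1.two.isNilpotent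
    (inf_lt_left.2 c1)).not_ge
  have g2 : ¬ T₂ ⊓ N ≤ I := (Coprime.lt_inf_normalizer_of_isNilpotent h2.two.isNilpotent
    (inf_lt_right.2 c2)).not_ge
  have lO : I ≤ pCoreOf 2 N := LAE.le_pCoreOf iI.two le_normalizer le_rfl
  by_cases hO : pCoreOf 2 N ≤ I
  swap
  · have iO : Inv E (pCoreOf 2 N) := ⟨LAE.isPGroup_pCoreOf _, LAE.le_normalizer_pCoreOf_of_le nN⟩
    have key : ∀ T, MaxInv E T → I ≤ T → ¬ T ⊓ N ≤ I → ∃ T', MaxInv E T' ∧ pCoreOf 2 N ≤ T' ∧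
        Rl E T T' := fun T hT l g => by
      obtain ⟨T', a, b⟩ := (iO.sup (hT.toInv.inf nN)
        (inf_le_right.trans (LAE.le_normalizer_pCoreOf N))).exists_max
      exact ⟨T', a, le_sup_left.trans b, ih' _ g _ _ hT a (sup_le l inf_le_left)
        ((sup_le_sup_right lO _).trans b)⟩
    obtain ⟨U₁, a1, a2, a3⟩ := key T₁ h1 l1 g1
    obtain ⟨U₂, b1, b2, b3⟩ := key T₂ h2 l2 g2
    exact (a3.trans (ih' _ hO _ _ a1 b1 (sup_le (lO.trans a2) a2) (sup_le (lO.trans b2) b2))).trans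
      b3.symm
  obtain ⟨e₁, m1, n1, k1⟩ := h.exists_e (h1.toInv.inf nN) g1
  obtain ⟨e₂, m2, n2, k2⟩ := h.exists_e (h2.toInv.inf nN) g2
  have i1 := (h1.toInv.inf nN).inf ((h.le_cent m1).trans le_normalizer)
  have i2 := (h2.toInv.inf nN).inf ((h.le_cent m2).trans le_normalizer)
  by_cases ne : e₂ ∈ zpowers e₁
  · obtain ⟨k, km, kO, S, sM, iS, s1, s2⟩ := h.conj m1 (M := th e₁ ⊓ N) inf_le_left
      ((le_inf ((h.le_cent m1).trans (le_norm_th e₁)) nN).trans inf_normalizer_le_normalizer_inf)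
      i1 i2 (le_inf (h.b3 i1 m1 n1 inf_le_right) (inf_le_left.trans inf_le_right))
      (le_inf (h.b3 i2 m1 n1 (by
        haveI : Fact (Nat.Prime 3) := ⟨Nat.prime_three⟩
        have e : zpowers e₂ = zpowers e₁ := eq_of_le_of_card_ge (zpowers_le.2 ne) (by
          rw [Nat.card_zpowers, Nat.card_zpowers,
            orderOf_eq_prime (h.el.2 _ m1) fun c => n1 (c ▸ one_mem _),
            orderOf_eq_prime (h.el.2 _ m2) fun c => n2 (c ▸ one_mem _)])
        rw [← cent_zpowers e₁, ← e, cent_zpowers]; exact inf_le_right))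
        (inf_le_left.trans inf_le_right))
    obtain ⟨T, a, b⟩ := (iI.sup iS (sM.trans inf_le_right)).exists_max
    have kc : k ∈ normalizer (E : Set G) := centralizer_le_normalizer _ (map_subtype_le _ kO)
    have eI : cj k I = I := cj_eq km.2
    refine (Rl.trans ⟨k, kO, rfl⟩ (ih' (cj k _) (fun c => k1 ?_) _ _ (h1.conjN kc) a
      (sup_le (eI.ge.trans (map_mono l1)) (map_mono (inf_le_left.trans inf_le_left)))
      ((sup_le_sup_left s1 _).trans b))).trans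
      (ih' _ k2 _ _ a h2 ((sup_le_sup_left s2 _).trans b) (sup_le l2 (inf_le_left.trans inf_le_left)))
    exact (map_le_map_iff_of_injective (MulAut.conj k).injective).1 (c.trans eI.ge)
  · obtain ⟨M, iM, lM, a1, a2⟩ := h.pg iI h0 (le_antisymm hO lO) m1 n1 m2 n2 ne i1 i2
      (inf_le_left.trans inf_le_right) (inf_le_left.trans inf_le_right) inf_le_right inf_le_right k1 k2
    obtain ⟨T, a, b⟩ := iM.exists_max
    exact (ih' _ a1 _ _ h1 a (sup_le l1 (inf_le_right.trans (inf_le_left.trans inf_le_left)))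
      ((sup_le lM inf_le_left).trans b)).trans (ih' _ a2 _ _ a h2 ((sup_le lM inf_le_left).trans b)
      (sup_le l2 (inf_le_right.trans (inf_le_left.trans inf_le_left))))

theorem not_le_cent {T : Subgroup G} (hT : MaxInv E T) (h0 : T ≠ ⊥) {e : G} (he : e ∈ E)
    (e1 : e ≠ 1) : ¬ T ≤ centralizer ({e} : Set G) := fun c => by
  have e0 : pCoreOf 2 (normalizer (T : Set G)) = T := hT.max _ ⟨LAE.isPGroup_pCoreOf _,
    LAE.le_normalizer_pCoreOf_of_le (hT.norm.trans le_normalizer)⟩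
    (LAE.le_pCoreOf hT.two le_normalizer le_rfl)
  have := h.loc.two T hT.two h0 (x := ⟨e, hT.norm he⟩) fun t ht => Subtype.ext
    (mem_centralizer_singleton_iff.1 (c (e0.le (LAE.mem_pCore_iff.1 ht))))
  rw [LAE.mem_pCore_iff, e0] at this
  exact e1 (KM.eq_one_of_odd_of_mem hT.two
    (Odd.of_dvd_nat (by decide) (orderOf_dvd_of_pow_eq_one (h.el.2 e he))) this)

/-- at most one of the three centralizers meets `T` trivially, and not two -/
theorem two {T : Subgroup G} (hT : MaxInv E T) (h0 : T ≠ ⊥) {x : G} (hx : x ∈ E)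
    (nx : x ∉ zpowers z) (j : ℕ) :
    ∃ i < 3, i ≠ j ∧ T ⊓ centralizer ({x * z ^ i} : Set G) ≠ ⊥ := by
  have mj : x * z ^ j ∈ E := mul_mem hx (pow_mem h.zE j)
  obtain ⟨e, m, n, k⟩ := h.exists_e hT.toInv (h.not_le_cent hT h0 mj fun c => nx (by
    rw [eq_inv_of_mul_eq_one_left c]; exact inv_mem (pow_mem (mem_zpowers z) j)))
  obtain ⟨a, i, hi, e1, -⟩ := h.exists_pow hx nx m n
  have l : centralizer ({e} : Set G) ≤ centralizer {x * z ^ i} := fun w hw => by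
    rw [← e1]
    exact mem_centralizer_singleton_iff.2
      ((show Commute w e from mem_centralizer_singleton_iff.1 hw).pow_right a)
  refine ⟨i, hi, fun c => k (c ▸ inf_le_right.trans l), fun c => k ?_⟩
  exact ((inf_le_inf_left T l).trans c.le).trans bot_le

end Bd

theorem Bd.trans {E T₁ T₂ : Subgroup G} {z : G} (h : Bd E z) (h1 : MaxInv E T₁) (h2 : MaxInv E T₂) :
    ∃ k ∈ O3 (centralizer (E : Set G)), T₂ = T₁.map (MulAut.conj k).toMonoidHom := by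
  change Rl E T₁ T₂
  by_cases a0 : T₁ = ⊥
  · exact Rl.of_le h1 h2.toInv (a0 ▸ bot_le)
  by_cases b0 : T₂ = ⊥
  · exact (Rl.of_le h2 h1.toInv (b0 ▸ bot_le)).symm
  obtain ⟨x, hx, nx, -⟩ := h.exists_e h1.toInv (I := ⊥) (fun c => a0 (le_bot_iff.1 c))
  obtain ⟨j, c1, c2⟩ : ∃ j : ℕ, T₁ ⊓ centralizer ({x * z ^ j} : Set G) ≠ ⊥ ∧
      T₂ ⊓ centralizer ({x * z ^ j} : Set G) ≠ ⊥ := by
    obtain ⟨a, a3, -, ha⟩ := h.two h1 a0 hx nx 0
    obtain ⟨b, b3, ba, hb⟩ := h.two h1 a0 hx nx a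
    obtain ⟨c, c3, -, hc⟩ := h.two h2 b0 hx nx 0
    obtain ⟨d, d3, dc, hd⟩ := h.two h2 b0 hx nx c
    rcases (by omega : a = c ∨ a = d ∨ b = c ∨ b = d) with rfl | rfl | rfl | rfl
    exacts [⟨_, ha, hc⟩, ⟨_, ha, hd⟩, ⟨_, hb, hc⟩, ⟨_, hb, hd⟩]
  have m : x * z ^ j ∈ E := mul_mem hx (pow_mem h.zE j)
  have n : x * z ^ j ∉ zpowers z := fun c => nx ((mul_mem_cancel_right (pow_mem (mem_zpowers z) j)).1 c)
  have i1 := h1.toInv.inf ((h.le_cent m).trans le_normalizer)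
  have i2 := h2.toInv.inf ((h.le_cent m).trans le_normalizer)
  obtain ⟨k, -, kO, S, -, iS, s1, s2⟩ := h.conj m le_rfl ((h.le_cent m).trans (le_norm_th _)) i1 i2
    (h.b3 i1 m n inf_le_right) (h.b3 i2 m n inf_le_right)
  obtain ⟨T, a, b⟩ := iS.exists_max
  exact (Rl.trans ⟨k, kO, rfl⟩ (h.meet _ (fun c => c1 ((map_eq_bot_iff_of_injective _
    (MulAut.conj k).injective).1 c)) _ _ (h1.conjN (centralizer_le_normalizer _ (map_subtype_le _ kO)))
    a (map_mono inf_le_left) (s1.trans b))).trans (h.meet _ c2 _ _ a h2 (s2.trans b) inf_le_left)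

end CfsgLib.Mas
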