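import Mathlib
import Cfsg.Agent.Lib.Mas.Tr
import Cfsg.Agent.Lib.Mas.Good

/-!
All elements of order 3 are good (plans/MAS.md, BAD).
-/

set_option autoImplicit false
set_option linter.unusedSectionVars false

namespace CfsgLib.Mas

open Cfsg Subgroup

variable {G : Type*} [Group G] [Finite G]

theorem th_eq {a b : G} (h : zpowers a = zpowers b) : th a = th b := by
  change O3 (centralizer {a}) = O3 (centralizer {b})
  rw [← cent_zpowers, h, cent_zpowers]

theorem mem_sup_zp {x z e : G} (x3 : x ^ 3 = 1) (z3 : z ^ 3 = 1) (c : Commute x z)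
    (he : e ∈ zpowers z ⊔ zpowers x) : ∃ a b : ℕ, e = x ^ a * z ^ b := by
  let K : Subgroup G :=
    { carrier := {g | ∃ a b : ℕ, g = x ^ a * z ^ b}
      one_mem' := ⟨0, 0, by simp⟩
      mul_mem' := by
        rintro _ _ ⟨a, b, rfl⟩ ⟨a', b', rfl⟩
        exact ⟨a + a', b + b', by rw [pow_add, pow_add, (c.symm.pow_pow b a').mul_mul_mul_comm]⟩
      inv_mem' := by
        rintro _ ⟨a, b, rfl⟩
        refine ⟨2 * a, 2 * b, inv_eq_of_mul_eq_one_right ?_⟩
        rw [(c.symm.pow_pow b _).mul_mul_mul_comm, ← pow_add, ← pow_add,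
          show a + 2 * a = 3 * a by ring, show b + 2 * b = 3 * b by ring, pow_mul, pow_mul, x3, z3]
        simp }
  exact (show _ ≤ K from sup_le (zpowers_le.2 ⟨0, 1, by simp⟩) (zpowers_le.2 ⟨1, 0, by simp⟩)) he

theorem Gd.bd {P : Sylow 3 G} {U : Subgroup G} (h : Gd P U) {x z : G} (hx : orderOf x = 3)
    (xP : x ∈ P) (ev : ¬ Odd (Nat.card (th x))) (zU : z ∈ U) (z1 : z ≠ 1)
    (zc : z ∈ centralizer (P : Set G)) (hz : ∀ g ∈ P, ∀ u ∈ U, g * u * g⁻¹ * u⁻¹ ∈ zpowers z) :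
    Bd (zpowers z ⊔ zpowers x) z ∧ U ≤ normalizer ((zpowers z ⊔ zpowers x : Subgroup G) : Set G) := by
  haveI : Fact (Nat.Prime 3) := ⟨Nat.prime_three⟩
  have x3 : x ^ 3 = 1 := hx ▸ pow_orderOf_eq_one x
  have z3 := h.el.2 z zU
  have oz := orderOf_eq_prime z3 z1
  have cU := KM.el_le h.el
  have xc : x ∉ centralizer (U : Set G) := fun c => ev (h.g1 x hx c)
  have cm : Commute x z := zc x xP
  have hy : ∀ u ∈ U, u * x * u⁻¹ * x⁻¹ ∈ zpowers z := fun u hu => by
    simpa [mul_assoc] using inv_mem (hz x xP u hu)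
  obtain ⟨el, cd⟩ := KM.el_ext Nat.prime_three (D := zpowers z) (x := x)
    ⟨inferInstance, fun a ha => by
      obtain ⟨n, rfl⟩ := mem_zpowers_iff.1 ha
      rw [← zpow_natCast, ← zpow_mul, mul_comm, zpow_mul, zpow_natCast, z3, one_zpow]⟩
    (by rw [cent_zpowers]; exact mem_centralizer_singleton_iff.2 cm) x3
    fun c => xc (cU (zpowers_le.2 zU c))
  refine ⟨⟨h.loc, el, by rw [cd, Nat.card_zpowers, oz], mem_sup_left (mem_zpowers z), z1,
    h.g1 z oz (cU zU), fun e he ne A hA hc => ?_⟩, fun u hu => mem_normalizer_fintype fun n hn => ?_⟩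
  · by_contra! c
    have e1 : e ≠ 1 := fun c => ne (c ▸ one_mem _)
    have od := h.g2 e (orderOf_eq_prime (el.2 e he) e1) A hA hc c
    obtain ⟨a, b, rfl⟩ := mem_sup_zp x3 z3 cm he
    have ha : a * a % 3 = 1 := by
      have : a % 3 ≠ 0 := fun c => ne (by
        rw [pow_eq_pow_mod a x3, c, pow_zero, one_mul]; exact pow_mem (mem_zpowers z) b)
      rw [Nat.mul_mod]
      rcases (by omega : a % 3 = 1 ∨ a % 3 = 2) with h | h <;> rw [h]
    have p1 : (x ^ a * z ^ b) ^ a = x * z ^ (b * a) := by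
      rw [(cm.pow_pow a b).mul_pow, ← pow_mul, ← pow_mul, pow_eq_pow_mod _ x3, ha, pow_one]
    have p2 : zpowers (x ^ a * z ^ b) = zpowers (x * z ^ (b * a)) := le_antisymm (zpowers_le.2 (by
      have : (x * z ^ (b * a)) ^ a = x ^ a * z ^ b := by
        rw [← p1, ← pow_mul, pow_eq_pow_mod _ (el.2 _ he), ha, pow_one]
      exact this ▸ pow_mem (mem_zpowers _) a)) (zpowers_le.2 (p1 ▸ pow_mem (mem_zpowers _) a))
    obtain ⟨u, hu, ux⟩ : ∃ u ∈ U, u * x ≠ x * u := by by_contra! c; exact xc c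
    set y := u * x * u⁻¹ * x⁻¹ with hyd
    have y1 : y ≠ 1 := fun c => ux (by rw [hyd, mul_inv_eq_one, mul_inv_eq_iff_eq_mul] at c; exact c)
    have e : zpowers y = zpowers z := eq_of_le_of_card_ge (zpowers_le.2 (hy u hu)) (by
      rw [Nat.card_zpowers, Nat.card_zpowers, oz,
        orderOf_eq_prime (h.el.2 y (zpowers_le.2 zU (hy u hu))) y1])
    obtain ⟨k, hk⟩ := (mem_powers_iff_mem_zpowers.2 (e.ge (pow_mem (mem_zpowers z) (b * a))))
    have uy : Commute u y := cU (zpowers_le.2 zU (hy u hu)) u hu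
    have p3 : ∀ k : ℕ, u ^ k * x * (u ^ k)⁻¹ = y ^ k * x := fun k => by
      induction k with
      | zero => simp
      | succ k ih =>
        calc _ = u * (u ^ k * x * (u ^ k)⁻¹) * u⁻¹ := by group
          _ = y ^ k * (u * x * u⁻¹) := by rw [ih, ← mul_assoc, (uy.pow_right k).eq]; group
          _ = _ := by rw [pow_succ, mul_assoc (y ^ k), hyd, inv_mul_cancel_right]
    rw [th_eq p2, (cm.pow_right _).eq, ← show y ^ k = _ from hk, ← p3, card_th_conj] at od
    exact ev od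
  · obtain ⟨a, b, rfl⟩ := mem_sup_zp x3 z3 cm hn
    rw [show u * (x ^ a * z ^ b) * u⁻¹ = (u * x * u⁻¹ * x⁻¹ * x) ^ a * (u * z * u⁻¹) ^ b by
      rw [inv_mul_cancel_right, conj_pow, conj_pow]; group, cU zU u hu, mul_inv_cancel_right]
    exact mul_mem (pow_mem (mul_mem (mem_sup_left (hy u hu)) (mem_sup_right (mem_zpowers x))) a)
      (pow_mem (mem_sup_left (mem_zpowers z)) b)

theorem Gd.all' {P : Sylow 3 G} {U : Subgroup G} (h : Gd P U) {x : G} (hx : orderOf x = 3)
    (xP : x ∈ P) : Odd (Nat.card (th x)) := by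
  haveI : Fact (Nat.Prime 3) := ⟨Nat.prime_three⟩
  by_contra ev
  obtain ⟨⟨z, zU, z1, zc, hz⟩, ix⟩ := idx P.isPGroup' h.le h.norm h.el h.card
  obtain ⟨bd, nU⟩ := h.bd hx xP ev zU z1 zc hz
  set E := zpowers z ⊔ zpowers x
  have cU := KM.el_le h.el
  have U3 := KM.el_pgroup h.el
  obtain ⟨T0, -, i0, n0⟩ : ∃ T ≤ th x, Inv E T ∧ T ≠ ⊥ := by
    by_contra! c
    exact ev (odd_of_inv bd.pg3 ((bd.le_cent (mem_sup_right (mem_zpowers x))).trans (le_norm_th x))
      (cop_th x) c)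
  obtain ⟨T, mT, lT⟩ := i0.exists_max
  obtain ⟨k, hk, nT⟩ := Coprime.exists_conj_normalized (K := O3 (centralizer (E : Set G))) (A := U)
    (nU.trans ((Core.normalizer_le_normalizer_centralizer (E : Set G)).trans
      (Core.normalizer_le_normalizer_map_pPrimeCore (p := 3) (centralizer (E : Set G)))))
    (cop_of U3 (cop_O3 _)) (.inl (solv3 U3)) T fun a ha => bd.trans mT (mT.conjN (nU ha))
  have iT : Inv E (cj k T) := mT.toInv.conjN (centralizer_le_normalizer _ (map_subtype_le _ hk))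
  have := h.el.1
  obtain ⟨u, uU, u1, n1⟩ := Coprime.exists_centralizer_ne_bot (K := cj k T)
    (PLocal.Rank2.not_isCyclic_of_elemAb h.el (by rw [h.card]; norm_num)) nT
    (cop_of U3 (cop_two iT.two)) fun c => n0 (eq_bot_mono lT
      ((map_eq_bot_iff_of_injective _ (MulAut.conj k).injective).1 c))
  have ou := orderOf_eq_prime (h.el.2 u uU) u1
  have zu : z ∈ centralizer ({u} : Set G) := mem_centralizer_singleton_iff.2 (cU uU z zU)
  obtain ⟨S, s1, s2, s3, s4⟩ := Coprime.exists_le_sylow_relIndex (K := centralizer ({u} : Set G))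
    (U := P ⊓ centralizer (U : Set G)) (inf_le_right.trans (centralizer_le (Set.singleton_subset_iff.2 uU)))
    (P.isPGroup'.to_le inf_le_left)
  have k9 := (l1X (h.loc.con u ou) zu (h.el.2 z zU) inf_le_right (iT.two.to_le inf_le_left)
    (fun c => n1 (eq_bot_of_odd (iT.two.to_le inf_le_left) c (h.g1 u ou (cU uU))))
    (inf_normalizer_le_normalizer_inf ⟨iT.norm bd.zE, le_normalizer zu⟩)
    fun t ht c => bd.b4 iT ht.1 c).2.2 S s2 s3 s4 (s1 ⟨h.le zU, cU zU⟩)
  have l1 : Nat.card (P ⊓ centralizer (U : Set G) : Subgroup G) ≤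
      Nat.card (S ⊓ centralizer ({z} : Set G) : Subgroup G) :=
    card_le_of_le (le_inf s1 fun g hg => mem_centralizer_singleton_iff.2 (zc g hg.1))
  have l2 : Nat.card S ≤ Nat.card P := by
    obtain ⟨Q, hQ⟩ := s3.exists_le_sylow
    exact (card_le_of_le hQ).trans (Nat.card_congr (Q.equiv P).toEquiv).le
  have := Nat.card_pos (α := (P ⊓ centralizer (U : Set G) : Subgroup G))
  omega

theorem Gd.all {P : Sylow 3 G} {U : Subgroup G} (h : Gd P U) {x : G} (hx : orderOf x = 3) :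
    Odd (Nat.card (th x)) := by
  haveI : Fact (Nat.Prime 3) := ⟨Nat.prime_three⟩
  obtain ⟨Q, hQ⟩ := (pg_zpowers (hx ▸ pow_orderOf_eq_one x)).exists_le_sylow
  obtain ⟨g, rfl⟩ := MulAction.exists_smul_eq G Q P
  rw [← card_th_conj g]
  exact h.all' (by rw [← hx]; exact (MulAut.conj g).orderOf_eq x) ⟨x, hQ (mem_zpowers x), rfl⟩

end CfsgLib.Mas
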